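import Cfsg.Agent.H33.IM
import Cfsg.Agent.H671.H5Facts
import Cfsg.Agent.H614.Degree
import Cfsg.Agent.H614.Chars
import Cfsg.Agent.H459.Rad
import Cfsg.Agent.H216.Dih
import Cfsg.Agent.S0188
import Cfsg.Agent.S2119

/-!
S5009 (no degree divisible by 4): reduction to simple groups.
-/

set_option autoImplicit false

namespace Cfsg.Agent.H680.Red5009

open Cfsg Subgroup Cfsg.Agent.H614 Cfsg.Agent.H33 Cfsg.Agent.H459.Rad

universe u v

/-- The symmetric group of degree 7 has an irreducible character of degree 20. -/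
theorem im_perm_seven : IM 4 (Equiv.Perm (Fin 7)) := by
  have hβ : StrictMono ![1, 2, 3, 7] := by decide
  have hs : ∑ i, (![1, 2, 3, 7] : Fin 4 → ℕ) i = Fintype.card (Fin 7) + ∑ i : Fin 4, (i : ℕ) := by decide
  have h1 := isIrr_ch (α := Fin 7) hβ hs
  have h2 := FM_ones_formula 7 ![1, 2, 3, 7] (by decide)
  have h3 : FM (Multiset.replicate 7 1) ![1, 2, 3, 7] = 20 := by
    have e1 : (∏ i, (((![1, 2, 3, 7] : Fin 4 → ℕ) i).factorial : ℤ)) = 60480 := by decide
    have e2 : ((Nat.factorial 7 : ℕ) : ℤ) * ∏ i : Fin 4, ∏ j ∈ Finset.Ioi i,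
        (((![1, 2, 3, 7] : Fin 4 → ℕ) j : ℤ) - (![1, 2, 3, 7] : Fin 4 → ℕ) i) = 1209600 := by decide
    rw [e1, e2] at h2
    omega
  refine IM.of_apply_one h1 (n := 20) ?_ (by norm_num)
  rw [ch_apply, ty_one, Fintype.card_fin, h3]
  norm_num

section

variable (m : ℕ) (hm : ∀ (S : Type u) [Group S] [Finite S] [IsSimpleGroup S], ¬ IsMulCommutative S → IM m S)

include hm in
/-- nonsolvable groups -/
theorem im_of_not_solvable (n : ℕ) : ∀ (X : Type u) [Group X] [Finite X], Nat.card X ≤ n →
    ¬ Group.IsSolvable X → IM m X := by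
  induction n with
  | zero =>
    intro X _ _ hn
    exact absurd hn (by have := Nat.card_pos (α := X); omega)
  | succ n ih =>
    intro X _ _ hn hX
    by_cases hs : IsSimpleGroup X
    · refine hm X fun hc => hX ?_
      exact Group.isSolvable_of_comm fun a b => hc.is_comm.comm a b
    have hnt : Nontrivial X := by
      by_contra h
      rw [not_nontrivial_iff_subsingleton] at h
      exact hX (Group.isSolvable_of_comm fun a b => Subsingleton.elim _ _)
    obtain ⟨N, hN, hNb, hNt⟩ : ∃ N : Subgroup X, N.Normal ∧ N ≠ ⊥ ∧ N ≠ ⊤ := by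
      by_contra hcon
      push Not at hcon
      exact hs ⟨fun N hN => by
        by_cases h : N = ⊥
        · exact Or.inl h
        · exact Or.inr (hcon N hN h)⟩
    have h1 : Nat.card N < Nat.card X := by
      refine lt_of_le_of_ne (Subgroup.card_le_card_group N) fun h => hNt ?_
      exact Subgroup.eq_top_of_card_eq N h
    have h2 := Subgroup.card_eq_card_quotient_mul_card_subgroup N
    have h3 : 1 < Nat.card N := by rw [Subgroup.one_lt_card_iff_ne_bot]; exact hNb
    have h4 : 0 < Nat.card (X ⧸ N) := Nat.card_pos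
    by_cases hNs : Group.IsSolvable N
    · have hq : ¬ Group.IsSolvable (X ⧸ N) := fun h => hX (isSolvable_of_quotient N hNs h)
      exact (ih (X ⧸ N) (by nlinarith) hq).of_quotient N
    · exact (ih N (by omega) hNs).of_normal N

end

theorem im_prod {A : Type u} {B : Type v} [Group A] [Group B] [Finite A] [Finite B] {a b : ℕ} (hA : IM a A)
    (hB : IM b B) : IM (a * b) (A × B) := by
  obtain ⟨χ, hχ⟩ := hA
  obtain ⟨ψ, hψ⟩ := hB
  obtain ⟨d, hd⟩ := Cfsg.Agent.Characters.Core.isIrr_apply_one χ.2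
  obtain ⟨e, he⟩ := Cfsg.Agent.Characters.Core.isIrr_apply_one ψ.2
  rw [H670.PSing.charDegree_eq_of hd.2] at hχ
  rw [H670.PSing.charDegree_eq_of he.2] at hψ
  refine IM.of_apply_one (n := d * e) (Cfsg.Agent.S0188.isIrr_outer χ.2 ψ.2) ?_ (Nat.mul_dvd_mul hχ hψ)
  change (χ : A → ℂ) 1 * (ψ : B → ℂ) 1 = _
  rw [hd.2, he.2]
  push_cast
  rfl

/-- two commuting normal subgroups with trivial intersection -/
theorem im_of_two {Q : Type u} [Group Q] [Finite Q] (A B : Subgroup Q) [A.Normal] [B.Normal]
    (hAB : ∀ a ∈ A, ∀ b ∈ B, a * b = b * a) (hd : A ⊓ B = ⊥) {a b : ℕ} (hA : IM a A) (hB : IM b B) :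
    IM (a * b) Q := by
  let f : A × B →* Q :=
    { toFun := fun x => (x.1 : Q) * x.2
      map_one' := by simp
      map_mul' := fun x y => by
        change (x.1 : Q) * y.1 * (x.2 * y.2) = x.1 * x.2 * (y.1 * y.2)
        have := hAB y.1 y.1.2 x.2 x.2.2
        calc (x.1 : Q) * y.1 * (x.2 * y.2) = x.1 * (y.1 * x.2) * y.2 := by group
          _ = x.1 * (x.2 * y.1) * y.2 := by rw [this]
          _ = x.1 * x.2 * (y.1 * y.2) := by group }
  have hf : Function.Injective f := by
    rw [injective_iff_map_eq_one]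
    rintro ⟨x, y⟩ hxy
    have h1 : (x : Q) * y = 1 := hxy
    have h3 : (x : Q) ∈ B := by
      rw [eq_inv_of_mul_eq_one_left h1]
      exact inv_mem y.2
    have h2 : (x : Q) ∈ A ⊓ B := ⟨x.2, h3⟩
    rw [hd, mem_bot] at h2
    rw [h2, one_mul] at h1
    exact Prod.ext (Subtype.ext h2) (Subtype.ext h1)
  have hr : f.range = A ⊔ B := by
    apply le_antisymm
    · rintro _ ⟨x, rfl⟩
      exact mul_mem (mem_sup_left x.1.2) (mem_sup_right x.2.2)
    · refine sup_le ?_ ?_
      · intro x hx
        exact ⟨(⟨x, hx⟩, 1), by change x * 1 = x; rw [mul_one]⟩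
      · intro x hx
        exact ⟨(1, ⟨x, hx⟩), by change 1 * x = x; rw [one_mul]⟩
  have hn : f.range.Normal := by rw [hr]; infer_instance
  have e : A × B ≃* f.range := MonoidHom.ofInjective hf
  exact ((IM.congr e).1 (im_prod hA hB)).of_normal f.range

/-- the degree fact -/
def Fact4 : Prop := ∀ (S : Type u) [Group S] [Finite S] [IsSimpleGroup S], ¬ IsMulCommutative S →
  (∃ χ : Cfsg.IrrCharacter S, 4 ∣ Cfsg.charDegree (χ : S → ℂ)) ∨ Nonempty (S ≃* ↥(alternatingGroup (Fin 7)))

theorem card_A7 : Nat.card (alternatingGroup (Fin 7)) = 2520 := by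
  rw [nat_card_alternatingGroup, Nat.card_eq_fintype_card, Fintype.card_fin]
  decide

theorem simple_A7 : IsSimpleGroup (alternatingGroup (Fin 7)) := alternatingGroup.isSimpleGroup (by simp)

theorem main (h4 : Fact4.{u}) (h2 : ∀ (S : Type u) [Group S] [Finite S] [IsSimpleGroup S], ¬ IsMulCommutative S →
    IM 2 S) (n : ℕ) : ∀ (Q : Type u) [Group Q] [Finite Q], Nat.card Q ≤ n → Nontrivial Q →
    solvableRadical Q = ⊥ → ¬ IM 4 Q → Nonempty (Q ≃* alternatingGroup (Fin 7)) := by
  induction n with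
  | zero =>
    intro Q _ _ hn
    exact absurd hn (by have := Nat.card_pos (α := Q); omega)
  | succ n ih =>
    intro Q _ _ hn hnt hrad hQ
    have hnc : ∀ N : Subgroup Q, N.Normal → Group.IsSolvable N → N = ⊥ := by
      intro N hN hs
      rw [eq_bot_iff, ← hrad]
      exact le_rad hN hs
    have hQs : ¬ Group.IsSolvable Q := by
      intro hs
      have h1 := rad_eq_top_iff.2 hs
      rw [hrad] at h1
      exact bot_ne_top h1
    by_cases hs : IsSimpleGroup Q
    · rcases h4 Q (fun hc => hQs (Group.isSolvable_of_comm fun a b => hc.is_comm.comm a b)) with h | h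
      · exact absurd h hQ
      · exact h
    obtain ⟨M, hM, hMb, hMt⟩ : ∃ N : Subgroup Q, N.Normal ∧ N ≠ ⊥ ∧ N ≠ ⊤ := by
      by_contra hcon
      push Not at hcon
      exact hs ⟨fun N hN => by
        by_cases h : N = ⊥
        · exact Or.inl h
        · exact Or.inr (hcon N hN h)⟩
    have h1 : Nat.card M < Nat.card Q := by
      refine lt_of_le_of_ne (Subgroup.card_le_card_group M) fun h => hMt ?_
      exact Subgroup.eq_top_of_card_eq M h
    have hMnt : Nontrivial M := (nontrivial_iff_ne_bot M).2 hMb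
    have hMrad : solvableRadical M = ⊥ := by
      have h3 : ((solvableRadical M).map M.subtype) = ⊥ :=
        hnc _ ConjAct.normal_of_characteristic_of_normal
          (Group.isSolvable_of_surjective (f := ((solvableRadical M).equivMapOfInjective _ M.subtype_injective).toMonoidHom)
            ((solvableRadical M).equivMapOfInjective _ M.subtype_injective).surjective)
      rwa [map_eq_bot_iff_of_injective _ M.subtype_injective] at h3
    obtain ⟨e⟩ := ih M (by omega) hMnt hMrad (fun h => hQ (h.of_normal M))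
    have hMs : IsSimpleGroup M := (MulEquiv.isSimpleGroup_congr e).2 simple_A7
    have hMns : ¬ Group.IsSolvable M := fun h => hMb (hnc M hM h)
    -- the centralizer is trivial
    have hCM : centralizer (M : Set Q) ⊓ M = ⊥ := by
      refine hnc _ inferInstance ?_
      exact Group.isSolvable_of_comm fun a b => Subtype.ext (mem_centralizer_iff.1 b.2.1 a a.2.2)
    have hC : centralizer (M : Set Q) = ⊥ := by
      by_contra hne
      have hCs : ¬ Group.IsSolvable (centralizer (M : Set Q)) := fun h => hne (hnc _ inferInstance h)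
      apply hQ
      have h5 := im_of_two (centralizer (M : Set Q)) M (fun a ha b hb => (mem_centralizer_iff.1 ha b hb).symm) hCM
        (im_of_not_solvable 2 h2 _ _ le_rfl hCs) (im_of_not_solvable 2 h2 _ _ le_rfl hMns)
      exact h5
    obtain ⟨K, hK, ⟨e'⟩⟩ := H216.Dih.exists_range M hC e
    have hb := Cfsg.Agent.S2119.result 7 (by norm_num) (by norm_num)
    let c : Equiv.Perm (Fin 7) ≃* MulAut ↥(alternatingGroup (Fin 7)) := MulEquiv.ofBijective _ hb
    -- order
    have hcK : Nat.card K = Nat.card Q := (Nat.card_congr e'.toEquiv).symm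
    have hcM : Nat.card M = 2520 := by rw [Nat.card_congr e.toEquiv, card_A7]
    have hcA : Nat.card (MulAut ↥(alternatingGroup (Fin 7))) = 5040 := by
      rw [← Nat.card_congr c.toEquiv, Nat.card_perm, Nat.card_eq_fintype_card, Fintype.card_fin]
      decide
    have hd1 : Nat.card Q ∣ 5040 := by rw [← hcK, ← hcA]; exact card_subgroup_dvd_card K
    have hd2 : 2520 ∣ Nat.card Q := by rw [← hcM]; exact card_subgroup_dvd_card M
    have hcQ : Nat.card Q = 5040 := by
      obtain ⟨k, hk⟩ := hd2
      rw [hk] at hd1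
      have h6 : k ∣ 2 := by
        have : 2520 * k ∣ 2520 * 2 := hd1
        exact Nat.dvd_of_mul_dvd_mul_left (by norm_num) this
      rcases (Nat.dvd_prime Nat.prime_two).1 h6 with rfl | rfl
      · rw [hk, hcM] at h1
        omega
      · rw [hk]
    have hKt : K = ⊤ := eq_top_of_card_eq K (by rw [hcK, hcQ, hcA])
    have e1 : Q ≃* Equiv.Perm (Fin 7) :=
      (e'.trans ((MulEquiv.subgroupCongr hKt).trans topEquiv)).trans c.symm
    exact absurd (im_perm_seven.of_equiv e1) hQ

/-- **S5009 from the simple row.** -/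
theorem red (h4 : Fact4.{u}) (hIM2 : ∀ (S : Type u) [Group S] [Finite S] [IsSimpleGroup S], ¬ IsMulCommutative S →
    Cfsg.Agent.H671.H5.IM 2 S) {G : Type u} [Group G] [Finite G]
    (h : ∀ χ : Cfsg.IrrCharacter G, ¬ 4 ∣ Cfsg.charDegree (χ : G → ℂ)) :
    Group.IsSolvable G ∨ ∃ N : Subgroup G, ∃ hN : N.Normal, Group.IsSolvable ↥N ∧
      Nonempty (G ⧸ N ≃* ↥(alternatingGroup (Fin 7))) := by
  by_cases hG : Group.IsSolvable G
  · exact Or.inl hG
  right
  have h4' : ¬ IM 4 G := not_IM_iff.2 h
  refine ⟨solvableRadical G, inferInstance, inferInstance, ?_⟩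
  refine main h4 hIM2 _ _ le_rfl ?_ rad_quotient (fun h => h4' (h.of_quotient _))
  by_contra hcon
  rw [not_nontrivial_iff_subsingleton] at hcon
  apply hG
  rw [← rad_eq_top_iff]
  exact QuotientGroup.subgroup_eq_top_of_subsingleton _ hcon

end Cfsg.Agent.H680.Red5009
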