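import Cfsg.Agent.H676.OrdNT

/-!
# `Good` for the order formulas of the exceptional groups (helper680)

The pure number statements `g2 f4 e6 e7 e8 te6 td4 sz ree tf4` of `Cfsg.Agent.H678.FamTable`.
-/

set_option autoImplicit false

namespace Cfsg.Agent.H680.GoodExc

open Cfsg.Agent.H678 Cfsg.Agent.H676.OrdNT

theorem core {l f s q N D X : ℕ} (hl : l.Prime) (hq : q = l ^ f) (hN : D * N = q ^ s * X)
    (hX : Nat.Coprime l X) (h1 : q ^ s * D < X)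
    (h2 : ∀ r k : ℕ, r.Prime → r ≠ l → r ^ k ∣ X → r ^ k ≤ q ^ s) : Good N := by
  refine good_of_dvd fun p k hp hk => ?_
  have hqpos : 0 < q ^ s := by
    rw [hq]
    exact pow_pos (pow_pos hl.pos _) _
  have hle : p ^ k ≤ q ^ s := by
    have h3 : p ^ k ∣ q ^ s * X := hN ▸ (hk.mul_left D)
    by_cases hpl : p = l
    · subst hpl
      have h4 : p ^ k ∣ q ^ s := (Nat.Coprime.pow_left k hX).dvd_of_dvd_mul_right h3
      exact Nat.le_of_dvd hqpos h4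
    · have hcop : Nat.Coprime p (q ^ s) := by
        rw [hq]
        exact Nat.Coprime.pow_right _ (Nat.Coprime.pow_right _ ((Nat.coprime_primes hp hl).2 hpl))
      exact h2 p k hp hpl ((Nat.Coprime.pow_left k hcop).dvd_of_dvd_mul_left h3)
  have h6 : D * (p ^ k) ^ 2 < D * N := by
    rw [hN]
    calc D * (p ^ k) ^ 2 ≤ D * (q ^ s) ^ 2 := Nat.mul_le_mul_left _ (Nat.pow_le_pow_left hle 2)
      _ = q ^ s * (q ^ s * D) := by ring
      _ < q ^ s * X := Nat.mul_lt_mul_of_pos_left h1 hqpos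
  exact lt_of_mul_lt_mul_left h6 (Nat.zero_le _)

/-- A crude bound of prime powers dividing `P q m`. -/
theorem crude {q l f m r k : ℕ} (hl : l.Prime) (hqe : q = l ^ f) (hq2 : 2 ≤ q) (hm : 1 ≤ m)
    (hr : r.Prime) (hrl : r ≠ l) (hk : r ^ k ∣ P q m) : r ^ k ≤ (2 * (q + 1)) ^ m * 2 ^ (m - 1) := by
  have hrq : ¬ r ∣ q := by
    intro h
    rw [hqe] at h
    exact hrl ((Nat.prime_dvd_prime_iff_eq hr hl).1 (hr.dvd_of_dvd_pow h))
  by_cases h2 : r = 2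
  · subst h2
    exact two_le hrq hq2 hk
  · refine (odd_le hr h2 hrq hq2 hm hk).trans ?_
    exact Nat.mul_le_mul_right _ (Nat.pow_le_pow_left (by omega) _)

/-- The crude bound, in terms of `q`. -/
theorem crude_pow {q l f m r k s : ℕ} (hl : l.Prime) (hqe : q = l ^ f) (hq2 : 2 ≤ q) (hm : 1 ≤ m)
    (hs : 4 * m - 1 ≤ s) (hr : r.Prime) (hrl : r ≠ l) (hk : r ^ k ∣ P q m) : r ^ k ≤ q ^ s := by
  refine (crude hl hqe hq2 hm hr hrl hk).trans ?_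
  have h1 : 2 * (q + 1) ≤ q ^ 3 := by
    have h2 : 2 * 2 ≤ q * q := Nat.mul_le_mul hq2 hq2
    have h3 : (2 * 2) * q ≤ (q * q) * q := Nat.mul_le_mul_right _ h2
    have h4 : q ^ 3 = q * q * q := by ring
    omega
  calc (2 * (q + 1)) ^ m * 2 ^ (m - 1) ≤ (q ^ 3) ^ m * q ^ (m - 1) :=
        Nat.mul_le_mul (Nat.pow_le_pow_left h1 _) (Nat.pow_le_pow_left hq2 _)
    _ = q ^ (3 * m + (m - 1)) := by rw [← pow_mul, ← pow_add]
    _ ≤ q ^ s := Nat.pow_le_pow_right (by omega) (by omega)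

/-- `3 q^d ≤ 4 (q^d - 1)`. -/
theorem sub_ge {q d : ℕ} (hq : 2 ≤ q) (hd : 2 ≤ d) : 3 * q ^ d ≤ 4 * (q ^ d - 1) := by
  have h1 : 2 ^ 2 ≤ q ^ d := by
    calc 2 ^ 2 ≤ q ^ 2 := Nat.pow_le_pow_left hq 2
      _ ≤ q ^ d := Nat.pow_le_pow_right (by omega) hd
  omega

theorem P_unfold9 (q : ℕ) : P q 9 = (q ^ 2 - 1) * (q ^ 4 - 1) * (q ^ 6 - 1) * (q ^ 8 - 1) * (q ^ 10 - 1) *
    (q ^ 12 - 1) * (q ^ 14 - 1) * (q ^ 16 - 1) * (q ^ 18 - 1) := by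
  unfold P
  simp [Finset.prod_range_succ]

theorem sq_sub (x : ℕ) (d : ℕ) : x ^ (2 * d) - 1 = (x ^ d + 1) * (x ^ d - 1) := by
  rw [mul_comm 2 d, pow_mul, ← Nat.sq_sub_sq, one_pow]

theorem pow_pos2 {q : ℕ} (hq : 2 ≤ q) (d : ℕ) : 0 < q ^ d := pow_pos (by omega) _

/-- The core lemma with `X ∣ P q m`. -/
theorem coreP {s q N D X m : ℕ} (hq : IsPrimePow q) (hm : 1 ≤ m) (hs : 4 * m - 1 ≤ s)
    (hN : D * N = q ^ s * X) (hX : X ∣ P q m) (h1 : q ^ s * D < X) : Good N := by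
  obtain ⟨l, f, hl, hf, hqe, hq2, -⟩ := even_or hq
  have hlq : l ∣ q := by rw [hqe]; exact dvd_pow_self l hf.ne'
  refine core hl hqe hN ((coprime_P (q := q) (m := m) hl hlq (by omega)).coprime_dvd_right hX) h1 ?_
  intro r k hr hrl hk
  exact crude_pow hl hqe hq2 hm hs hr hrl (hk.trans hX)

theorem two_le_of {q : ℕ} (hq : IsPrimePow q) : 2 ≤ q := hq.two_le

theorem f4 : ∀ q : ℕ, IsPrimePow q → Good (q ^ 24 * (q ^ 2 - 1) * (q ^ 6 - 1) * (q ^ 8 - 1) * (q ^ 12 - 1)) := by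
  intro q hq
  have hq2 := hq.two_le
  refine coreP (m := 6) (s := 24) (D := 1) (X := (q ^ 2 - 1) * (q ^ 6 - 1) * (q ^ 8 - 1) * (q ^ 12 - 1)) hq
    (by norm_num) (by norm_num) (by ring) ?_ ?_
  · refine ⟨(q ^ 4 - 1) * (q ^ 10 - 1), ?_⟩
    unfold P
    simp [Finset.prod_range_succ]
    ring
  · have a := sub_ge hq2 (d := 2) (by norm_num)
    have b := sub_ge hq2 (d := 6) (by norm_num)
    have c := sub_ge hq2 (d := 8) (by norm_num)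
    have d := sub_ge hq2 (d := 12) (by norm_num)
    have h := Nat.mul_le_mul (Nat.mul_le_mul (Nat.mul_le_mul a b) c) d
    have h4 : 2 ^ 4 ≤ q ^ 4 := Nat.pow_le_pow_left hq2 4
    have e1 : 3 * q ^ 2 * (3 * q ^ 6) * (3 * q ^ 8) * (3 * q ^ 12) = 81 * (q ^ 4 * q ^ 24) := by ring
    have e2 : 4 * (q ^ 2 - 1) * (4 * (q ^ 6 - 1)) * (4 * (q ^ 8 - 1)) * (4 * (q ^ 12 - 1)) =
      256 * ((q ^ 2 - 1) * (q ^ 6 - 1) * (q ^ 8 - 1) * (q ^ 12 - 1)) := by ring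
    rw [e1, e2] at h
    have h5 := Nat.mul_le_mul_right (q ^ 24) h4
    have h6 := pow_pos2 hq2 24
    omega

theorem e8 : ∀ q : ℕ, IsPrimePow q → Good (q ^ 120 * (q ^ 2 - 1) * (q ^ 8 - 1) * (q ^ 12 - 1) * (q ^ 14 - 1) *
      (q ^ 18 - 1) * (q ^ 20 - 1) * (q ^ 24 - 1) * (q ^ 30 - 1)) := by
  intro q hq
  have hq2 := hq.two_le
  refine coreP (m := 15) (s := 120) (D := 1) (X := (q ^ 2 - 1) * (q ^ 8 - 1) * (q ^ 12 - 1) * (q ^ 14 - 1) *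
      (q ^ 18 - 1) * (q ^ 20 - 1) * (q ^ 24 - 1) * (q ^ 30 - 1)) hq
    (by norm_num) (by norm_num) (by ring) ?_ ?_
  · refine ⟨(q ^ 4 - 1) * (q ^ 6 - 1) * (q ^ 10 - 1) * (q ^ 16 - 1) * (q ^ 22 - 1) * (q ^ 26 - 1) * (q ^ 28 - 1), ?_⟩
    unfold P
    simp [Finset.prod_range_succ]
    ring
  · have h := Nat.mul_le_mul (Nat.mul_le_mul (Nat.mul_le_mul (Nat.mul_le_mul (Nat.mul_le_mul (Nat.mul_le_mul
      (Nat.mul_le_mul (sub_ge hq2 (d := 2) (by norm_num)) (sub_ge hq2 (d := 8) (by norm_num)))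
      (sub_ge hq2 (d := 12) (by norm_num))) (sub_ge hq2 (d := 14) (by norm_num))) (sub_ge hq2 (d := 18) (by norm_num)))
      (sub_ge hq2 (d := 20) (by norm_num))) (sub_ge hq2 (d := 24) (by norm_num))) (sub_ge hq2 (d := 30) (by norm_num))
    have h4 : 2 ^ 8 ≤ q ^ 8 := Nat.pow_le_pow_left hq2 8
    have e1 : 3 * q ^ 2 * (3 * q ^ 8) * (3 * q ^ 12) * (3 * q ^ 14) * (3 * q ^ 18) * (3 * q ^ 20) * (3 * q ^ 24) *
      (3 * q ^ 30) = 6561 * (q ^ 8 * q ^ 120) := by ring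
    have e2 : 4 * (q ^ 2 - 1) * (4 * (q ^ 8 - 1)) * (4 * (q ^ 12 - 1)) * (4 * (q ^ 14 - 1)) * (4 * (q ^ 18 - 1)) *
      (4 * (q ^ 20 - 1)) * (4 * (q ^ 24 - 1)) * (4 * (q ^ 30 - 1)) =
      65536 * ((q ^ 2 - 1) * (q ^ 8 - 1) * (q ^ 12 - 1) * (q ^ 14 - 1) *
      (q ^ 18 - 1) * (q ^ 20 - 1) * (q ^ 24 - 1) * (q ^ 30 - 1)) := by ring
    rw [e1, e2] at h
    have h5 := Nat.mul_le_mul_right (q ^ 120) h4
    have h6 := pow_pos2 hq2 120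
    omega

theorem e7 : ∀ q N : ℕ, IsPrimePow q → Nat.gcd 2 (q - 1) * N = q ^ 63 * (q ^ 2 - 1) * (q ^ 6 - 1) * (q ^ 8 - 1) *
      (q ^ 10 - 1) * (q ^ 12 - 1) * (q ^ 14 - 1) * (q ^ 18 - 1) → Good N := by
  intro q N hq hN
  have hq2 := hq.two_le
  have hD : Nat.gcd 2 (q - 1) ≤ 2 := Nat.le_of_dvd (by norm_num) (Nat.gcd_dvd_left _ _)
  refine coreP (m := 9) (s := 63) (D := Nat.gcd 2 (q - 1)) (X := (q ^ 2 - 1) * (q ^ 6 - 1) * (q ^ 8 - 1) *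
      (q ^ 10 - 1) * (q ^ 12 - 1) * (q ^ 14 - 1) * (q ^ 18 - 1)) hq
    (by norm_num) (by norm_num) (by rw [hN]; ring) ?_ ?_
  · refine ⟨(q ^ 4 - 1) * (q ^ 16 - 1), ?_⟩
    rw [P_unfold9]
    ring
  · have h := Nat.mul_le_mul (Nat.mul_le_mul (Nat.mul_le_mul (Nat.mul_le_mul (Nat.mul_le_mul (Nat.mul_le_mul
      (sub_ge hq2 (d := 2) (by norm_num)) (sub_ge hq2 (d := 6) (by norm_num)))
      (sub_ge hq2 (d := 8) (by norm_num))) (sub_ge hq2 (d := 10) (by norm_num))) (sub_ge hq2 (d := 12) (by norm_num)))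
      (sub_ge hq2 (d := 14) (by norm_num))) (sub_ge hq2 (d := 18) (by norm_num))
    have h4 : 2 ^ 7 ≤ q ^ 7 := Nat.pow_le_pow_left hq2 7
    have e1 : 3 * q ^ 2 * (3 * q ^ 6) * (3 * q ^ 8) * (3 * q ^ 10) * (3 * q ^ 12) * (3 * q ^ 14) * (3 * q ^ 18)
      = 2187 * (q ^ 7 * q ^ 63) := by ring
    have e2 : 4 * (q ^ 2 - 1) * (4 * (q ^ 6 - 1)) * (4 * (q ^ 8 - 1)) * (4 * (q ^ 10 - 1)) * (4 * (q ^ 12 - 1)) *
      (4 * (q ^ 14 - 1)) * (4 * (q ^ 18 - 1)) =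
      16384 * ((q ^ 2 - 1) * (q ^ 6 - 1) * (q ^ 8 - 1) *
      (q ^ 10 - 1) * (q ^ 12 - 1) * (q ^ 14 - 1) * (q ^ 18 - 1)) := by ring
    rw [e1, e2] at h
    have h5 := Nat.mul_le_mul_right (q ^ 63) h4
    have h6 := pow_pos2 hq2 63
    have h7 := Nat.mul_le_mul_left (q ^ 63) hD
    omega

theorem e6 : ∀ q N : ℕ, IsPrimePow q → Nat.gcd 3 (q - 1) * N =
      q ^ 36 * (q ^ 2 - 1) * (q ^ 5 - 1) * (q ^ 6 - 1) * (q ^ 8 - 1) * (q ^ 9 - 1) * (q ^ 12 - 1) → Good N := by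
  intro q N hq hN
  have hq2 := hq.two_le
  have hD : Nat.gcd 3 (q - 1) ≤ 3 := Nat.le_of_dvd (by norm_num) (Nat.gcd_dvd_left _ _)
  refine coreP (m := 9) (s := 36) (D := Nat.gcd 3 (q - 1)) (X := (q ^ 2 - 1) * (q ^ 5 - 1) * (q ^ 6 - 1) *
    (q ^ 8 - 1) * (q ^ 9 - 1) * (q ^ 12 - 1)) hq
    (by norm_num) (by norm_num) (by rw [hN]; ring) ?_ ?_
  · refine ⟨(q ^ 4 - 1) * (q ^ 16 - 1) * (q ^ 5 + 1) * (q ^ 9 + 1) * (q ^ 14 - 1), ?_⟩
    rw [P_unfold9, show (10 : ℕ) = 2 * 5 by norm_num, sq_sub, show (18 : ℕ) = 2 * 9 by norm_num, sq_sub]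
    ring
  · have h := Nat.mul_le_mul (Nat.mul_le_mul (Nat.mul_le_mul (Nat.mul_le_mul (Nat.mul_le_mul
      (sub_ge hq2 (d := 2) (by norm_num)) (sub_ge hq2 (d := 5) (by norm_num)))
      (sub_ge hq2 (d := 6) (by norm_num))) (sub_ge hq2 (d := 8) (by norm_num))) (sub_ge hq2 (d := 9) (by norm_num)))
      (sub_ge hq2 (d := 12) (by norm_num))
    have h4 : 2 ^ 6 ≤ q ^ 6 := Nat.pow_le_pow_left hq2 6
    have e1 : 3 * q ^ 2 * (3 * q ^ 5) * (3 * q ^ 6) * (3 * q ^ 8) * (3 * q ^ 9) * (3 * q ^ 12)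
      = 729 * (q ^ 6 * q ^ 36) := by ring
    have e2 : 4 * (q ^ 2 - 1) * (4 * (q ^ 5 - 1)) * (4 * (q ^ 6 - 1)) * (4 * (q ^ 8 - 1)) * (4 * (q ^ 9 - 1)) *
      (4 * (q ^ 12 - 1)) =
      4096 * ((q ^ 2 - 1) * (q ^ 5 - 1) * (q ^ 6 - 1) * (q ^ 8 - 1) * (q ^ 9 - 1) * (q ^ 12 - 1)) := by ring
    rw [e1, e2] at h
    have h5 := Nat.mul_le_mul_right (q ^ 36) h4
    have h6 := pow_pos2 hq2 36
    have h7 := Nat.mul_le_mul_left (q ^ 36) hD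
    omega

theorem te6 : ∀ q N : ℕ, IsPrimePow q → Nat.gcd 3 (q + 1) * N =
      q ^ 36 * (q ^ 2 - 1) * (q ^ 5 + 1) * (q ^ 6 - 1) * (q ^ 8 - 1) * (q ^ 9 + 1) * (q ^ 12 - 1) → Good N := by
  intro q N hq hN
  have hq2 := hq.two_le
  have hD : Nat.gcd 3 (q + 1) ≤ 3 := Nat.le_of_dvd (by norm_num) (Nat.gcd_dvd_left _ _)
  refine coreP (m := 9) (s := 36) (D := Nat.gcd 3 (q + 1)) (X := (q ^ 2 - 1) * (q ^ 5 + 1) * (q ^ 6 - 1) *
    (q ^ 8 - 1) * (q ^ 9 + 1) * (q ^ 12 - 1)) hq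
    (by norm_num) (by norm_num) (by rw [hN]; ring) ?_ ?_
  · refine ⟨(q ^ 4 - 1) * (q ^ 16 - 1) * (q ^ 5 - 1) * (q ^ 9 - 1) * (q ^ 14 - 1), ?_⟩
    rw [P_unfold9, show (10 : ℕ) = 2 * 5 by norm_num, sq_sub, show (18 : ℕ) = 2 * 9 by norm_num, sq_sub]
    ring
  · have c1 : 3 * q ^ 5 ≤ 4 * (q ^ 5 + 1) := by omega
    have c2 : 3 * q ^ 9 ≤ 4 * (q ^ 9 + 1) := by omega
    have h := Nat.mul_le_mul (Nat.mul_le_mul (Nat.mul_le_mul (Nat.mul_le_mul (Nat.mul_le_mul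
      (sub_ge hq2 (d := 2) (by norm_num)) c1)
      (sub_ge hq2 (d := 6) (by norm_num))) (sub_ge hq2 (d := 8) (by norm_num))) c2)
      (sub_ge hq2 (d := 12) (by norm_num))
    have h4 : 2 ^ 6 ≤ q ^ 6 := Nat.pow_le_pow_left hq2 6
    have e1 : 3 * q ^ 2 * (3 * q ^ 5) * (3 * q ^ 6) * (3 * q ^ 8) * (3 * q ^ 9) * (3 * q ^ 12)
      = 729 * (q ^ 6 * q ^ 36) := by ring
    have e2 : 4 * (q ^ 2 - 1) * (4 * (q ^ 5 + 1)) * (4 * (q ^ 6 - 1)) * (4 * (q ^ 8 - 1)) * (4 * (q ^ 9 + 1)) *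
      (4 * (q ^ 12 - 1)) =
      4096 * ((q ^ 2 - 1) * (q ^ 5 + 1) * (q ^ 6 - 1) * (q ^ 8 - 1) * (q ^ 9 + 1) * (q ^ 12 - 1)) := by ring
    rw [e1, e2] at h
    have h5 := Nat.mul_le_mul_right (q ^ 36) h4
    have h6 := pow_pos2 hq2 36
    have h7 := Nat.mul_le_mul_left (q ^ 36) hD
    omega

theorem g2 : ∀ q : ℕ, IsPrimePow q → 3 ≤ q → Good (q ^ 6 * (q ^ 2 - 1) * (q ^ 6 - 1)) := by
  intro q hq hq3
  have hq2 := hq.two_le
  rcases Nat.lt_or_ge q 4 with h4 | h4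
  · have : q = 3 := by omega
    subst this
    exact good_of_chk (l := [(2, 6), (3, 6), (7, 1), (13, 1)]) (by decide +kernel)
  obtain ⟨l, f, hl, hf, hqe, -, -⟩ := even_or hq
  have hlq : l ∣ q := by rw [hqe]; exact dvd_pow_self l hf.ne'
  have hX : (q ^ 2 - 1) * (q ^ 6 - 1) ∣ P q 3 := by
    refine ⟨(q ^ 4 - 1), ?_⟩
    unfold P
    simp [Finset.prod_range_succ]
    ring
  refine core (s := 6) (D := 1) (X := (q ^ 2 - 1) * (q ^ 6 - 1)) hl hqe (by ring)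
    ((coprime_P (q := q) (m := 3) hl hlq (by omega)).coprime_dvd_right hX) ?_ ?_
  · have h := Nat.mul_le_mul (sub_ge hq2 (d := 2) (by norm_num)) (sub_ge hq2 (d := 6) (by norm_num))
    have h4 : 2 ^ 2 ≤ q ^ 2 := Nat.pow_le_pow_left hq2 2
    have e1 : 3 * q ^ 2 * (3 * q ^ 6) = 9 * (q ^ 2 * q ^ 6) := by ring
    have e2 : 4 * (q ^ 2 - 1) * (4 * (q ^ 6 - 1)) = 16 * ((q ^ 2 - 1) * (q ^ 6 - 1)) := by ring
    rw [e1, e2] at h
    have h5 := Nat.mul_le_mul_right (q ^ 6) h4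
    have h6 := pow_pos2 hq2 6
    omega
  · intro r k hr hrl hk
    refine (crude hl hqe hq2 (by norm_num) hr hrl (hk.trans hX)).trans ?_
    have h5 : 4 * (q + 1) ≤ 5 * q := by omega
    have h6 : 4 ^ 3 ≤ q ^ 3 := Nat.pow_le_pow_left h4 3
    have h7 : (4 * (q + 1)) ^ 3 ≤ (5 * q) ^ 3 := Nat.pow_le_pow_left h5 3
    have h8 : 64 * ((2 * (q + 1)) ^ 3 * 2 ^ (3 - 1)) ≤ 64 * q ^ 6 := by
      calc 64 * ((2 * (q + 1)) ^ 3 * 2 ^ (3 - 1)) = 32 * (4 * (q + 1)) ^ 3 := by norm_num; ring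
        _ ≤ 32 * (5 * q) ^ 3 := Nat.mul_le_mul_left _ h7
        _ = 4000 * q ^ 3 := by ring
        _ ≤ (64 * q ^ 3) * q ^ 3 := Nat.mul_le_mul_right _ (by omega)
        _ = 64 * q ^ 6 := by ring
    omega

/-- `r ^ a ∣ y ^ 2 - 1` gives `r ^ a ≤ 2 (y + 1)`. -/
theorem sq_part {r a y : ℕ} (hr : r.Prime) (hy : 2 ≤ y) (h : r ^ a ∣ (y + 1) * (y - 1)) : r ^ a ≤ 2 * (y + 1) := by
  obtain ⟨k1, k2, hk1, hk2, hk12⟩ := Nat.dvd_mul.1 h
  obtain ⟨i, -, rfl⟩ := (Nat.dvd_prime_pow hr).1 (Dvd.intro _ hk12)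
  obtain ⟨j, -, rfl⟩ := (Nat.dvd_prime_pow hr).1 (Dvd.intro_left _ hk12)
  have hi := Nat.le_of_dvd (by omega) hk1
  have hj := Nat.le_of_dvd (by omega) hk2
  rw [← hk12]
  rcases Nat.le_total i j with hij | hij
  · have h1 : r ^ i ∣ y - 1 := (pow_dvd_pow r hij).trans hk2
    have h2 := Nat.dvd_sub hk1 h1
    have h3 : y + 1 - (y - 1) = 2 := by omega
    rw [h3] at h2
    have h4 := Nat.le_of_dvd (by norm_num) h2
    calc r ^ i * r ^ j ≤ 2 * (y - 1) := Nat.mul_le_mul h4 hj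
      _ ≤ _ := by omega
  · have h1 : r ^ j ∣ y + 1 := (pow_dvd_pow r hij).trans hk1
    have h2 := Nat.dvd_sub h1 hk2
    have h3 : y + 1 - (y - 1) = 2 := by omega
    rw [h3] at h2
    have h4 := Nat.le_of_dvd (by norm_num) h2
    calc r ^ i * r ^ j ≤ (y + 1) * 2 := Nat.mul_le_mul hi h4
      _ ≤ _ := by omega

theorem td4 : ∀ q : ℕ, IsPrimePow q → Good (q ^ 12 * (q ^ 2 - 1) * (q ^ 6 - 1) * (q ^ 8 + q ^ 4 + 1)) := by
  intro q hq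
  have hq2 := hq.two_le
  obtain ⟨l, f, hl, hf, hqe, -, -⟩ := even_or hq
  have hlq : l ∣ q := by rw [hqe]; exact dvd_pow_self l hf.ne'
  have h12 : q ^ 2 ≤ q ^ 4 := Nat.pow_le_pow_right (by omega) (by norm_num)
  have hq4 : 2 ^ 2 ≤ q ^ 2 := Nat.pow_le_pow_left hq2 2
  have e1 : (q ^ 2 - 1) * (q ^ 6 - 1) * (q ^ 8 + q ^ 4 + 1) =
      (q ^ 6 - 1) * (q ^ 6 - 1) * (q ^ 4 - q ^ 2 + 1) := by
    have a1 : q ^ 8 + q ^ 4 + 1 = (q ^ 4 + q ^ 2 + 1) * (q ^ 4 - q ^ 2 + 1) := by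
      zify [h12]; ring
    have a2 : (q ^ 2 - 1) * (q ^ 4 + q ^ 2 + 1) = q ^ 6 - 1 := by
      have b1 : 1 ≤ q ^ 6 := Nat.one_le_pow _ _ (by omega)
      have b2 : 1 ≤ q ^ 2 := Nat.one_le_pow _ _ (by omega)
      zify [b1, b2]; ring
    rw [a1, ← a2]; ring
  have hcop : Nat.Coprime (q ^ 6 - 1) (q ^ 4 - q ^ 2 + 1) := by
    rw [Nat.coprime_iff_gcd_eq_one]
    set g := Nat.gcd (q ^ 6 - 1) (q ^ 4 - q ^ 2 + 1) with hg
    have g1 : g ∣ q ^ 6 - 1 := Nat.gcd_dvd_left _ _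
    have g2 : g ∣ q ^ 4 - q ^ 2 + 1 := Nat.gcd_dvd_right _ _
    have g3 : g ∣ q ^ 6 + 1 := by
      have : q ^ 6 + 1 = (q ^ 4 - q ^ 2 + 1) * (q ^ 2 + 1) := by zify [h12]; ring
      rw [this]; exact g2.mul_right _
    have g4 : g ∣ 2 := by
      have h1 := Nat.dvd_sub g3 g1
      have h2 : 1 ≤ q ^ 6 := Nat.one_le_pow _ _ (by omega)
      have : q ^ 6 + 1 - (q ^ 6 - 1) = 2 := by omega
      rwa [this] at h1
    have hodd : ¬ 2 ∣ q ^ 4 - q ^ 2 + 1 := by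
      have h3 : 2 ∣ q ^ 4 - q ^ 2 := by
        have : q ^ 4 - q ^ 2 = q * (q * (q ^ 2 - 1)) := by
          have : 1 ≤ q ^ 2 := by omega
          zify [h12, this]; ring
        rw [this]
        rcases Nat.even_or_odd q with he | ho
        · exact (he.two_dvd).mul_right _
        · have h4 : 2 ∣ q ^ 2 - 1 := by
            have h5 : Odd (q ^ 2) := ho.pow
            obtain ⟨t, ht⟩ := h5
            exact ⟨t, by omega⟩
          exact (h4.mul_left _).mul_left _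
      omega
    rcases (Nat.dvd_prime Nat.prime_two).1 g4 with h | h
    · exact h
    · exact absurd (h ▸ g2) hodd
  have hX : (q ^ 6 - 1) * (q ^ 6 - 1) * (q ^ 4 - q ^ 2 + 1) ∣ (P q 3) * P q 6 := by
    rw [← e1]
    refine ⟨(q ^ 2 - 1) * (q ^ 4 - 1) * (q ^ 4 - 1) * (q ^ 6 - 1) * (q ^ 8 - 1) * (q ^ 10 - 1) * (q ^ 4 - 1), ?_⟩
    have a3 : q ^ 12 - 1 = (q ^ 8 + q ^ 4 + 1) * (q ^ 4 - 1) := by
      have b1 : 1 ≤ q ^ 12 := Nat.one_le_pow _ _ (by omega)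
      have b2 : 1 ≤ q ^ 4 := Nat.one_le_pow _ _ (by omega)
      zify [b1, b2]; ring
    unfold P
    simp only [Finset.prod_range_succ, Finset.prod_range_zero, one_mul]
    norm_num
    rw [a3]
    ring
  refine core (s := 12) (D := 1) (X := (q ^ 6 - 1) * (q ^ 6 - 1) * (q ^ 4 - q ^ 2 + 1)) hl hqe
    (by rw [← e1]; ring) ?_ ?_ ?_
  · exact Nat.Coprime.coprime_dvd_right hX (Nat.Coprime.mul_right (coprime_P (q := q) (m := 3) hl hlq (by omega))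
      (coprime_P (q := q) (m := 6) hl hlq (by omega)))
  · have h := Nat.mul_le_mul (sub_ge hq2 (d := 6) (by norm_num)) (sub_ge hq2 (d := 6) (by norm_num))
    have e3 : 3 * q ^ 6 * (3 * q ^ 6) = 9 * q ^ 12 := by ring
    have e4 : 4 * (q ^ 6 - 1) * (4 * (q ^ 6 - 1)) = 16 * ((q ^ 6 - 1) * (q ^ 6 - 1)) := by ring
    rw [e3, e4] at h
    have h6 := pow_pos2 hq2 12
    have h7 : 2 ≤ q ^ 4 - q ^ 2 + 1 := by
      have : q ^ 4 = q ^ 2 * q ^ 2 := by ring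
      have h8 : q ^ 2 * 4 ≤ q ^ 2 * q ^ 2 := Nat.mul_le_mul_left _ hq4
      omega
    have h8 := Nat.mul_le_mul_left ((q ^ 6 - 1) * (q ^ 6 - 1)) h7
    omega
  · intro r k hr hrl hk
    have hb : 2 * (q ^ 3 + 1) ≤ q ^ 6 := by
      have h1 : 2 ^ 3 ≤ q ^ 3 := Nat.pow_le_pow_left hq2 3
      have h2 : q ^ 6 = q ^ 3 * q ^ 3 := by ring
      have h3 : 2 ^ 3 * q ^ 3 ≤ q ^ 3 * q ^ 3 := Nat.mul_le_mul_right _ h1
      omega
    by_cases hr6 : r ∣ q ^ 6 - 1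
    · have hrn : Nat.Coprime r (q ^ 4 - q ^ 2 + 1) := hcop.coprime_dvd_left hr6
      have hk2 := (Nat.Coprime.pow_left k hrn).dvd_of_dvd_mul_right hk
      obtain ⟨k1, k2, hk1, hk2, hk12⟩ := Nat.dvd_mul.1 hk2
      obtain ⟨i, -, rfl⟩ := (Nat.dvd_prime_pow hr).1 (Dvd.intro _ hk12)
      obtain ⟨j, -, rfl⟩ := (Nat.dvd_prime_pow hr).1 (Dvd.intro_left _ hk12)
      have hq3 : 2 ≤ q ^ 3 := by
        calc 2 ≤ 2 ^ 3 := by norm_num
          _ ≤ q ^ 3 := Nat.pow_le_pow_left hq2 3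
      rw [show (6 : ℕ) = 2 * 3 by norm_num, sq_sub] at hk1 hk2
      have h1 := (sq_part hr hq3 hk1).trans hb
      have h2 := (sq_part hr hq3 hk2).trans hb
      rw [← hk12, show q ^ 12 = q ^ 6 * q ^ 6 by ring]
      exact Nat.mul_le_mul h1 h2
    · have hk2 : r ^ k ∣ q ^ 4 - q ^ 2 + 1 := by
        refine Nat.Coprime.dvd_of_dvd_mul_left (Nat.Coprime.pow_left k ?_) hk
        exact Nat.Coprime.mul_right ((hr.coprime_iff_not_dvd).2 hr6) ((hr.coprime_iff_not_dvd).2 hr6)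
      have h1 := Nat.le_of_dvd (by omega) hk2
      have h2 : q ^ 4 ≤ q ^ 12 := Nat.pow_le_pow_right (by omega) (by norm_num)
      omega

/-- A prime power dividing a product of coprime factors divides one of them. -/
theorem pow_dvd_or {p k a b : ℕ} (hp : p.Prime) (hab : Nat.Coprime a b) (h : p ^ k ∣ a * b) :
    p ^ k ∣ a ∨ p ^ k ∣ b := by
  by_cases hpa : p ∣ a
  · left
    have : Nat.Coprime p b := hab.coprime_dvd_left hpa
    exact (Nat.Coprime.pow_left k this).dvd_of_dvd_mul_right h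
  · right
    exact (Nat.Coprime.pow_left k ((hp.coprime_iff_not_dvd).2 hpa)).dvd_of_dvd_mul_left h

theorem sz : ∀ m q : ℕ, 1 ≤ m → q = 2 ^ (2 * m + 1) → Good (q ^ 2 * (q - 1) * (q ^ 2 + 1)) := by
  intro m q hm hq
  have hq8 : 8 ≤ q := by
    rw [hq]
    calc 8 = 2 ^ 3 := by norm_num
      _ ≤ 2 ^ (2 * m + 1) := Nat.pow_le_pow_right (by norm_num) (by omega)
  have h2q : 2 ∣ q := by rw [hq]; exact dvd_pow_self 2 (by omega)
  refine good_of_dvd fun p k hp hk => ?_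
  have hQ : q ^ 2 = q * q := by ring
  have hQ8 : 8 * q ≤ q * q := Nat.mul_le_mul_right _ hq8
  have hbig : q ^ 2 + 1 < q ^ 2 * (q - 1) := by
    calc q ^ 2 + 1 < q ^ 2 * 7 := by omega
      _ ≤ q ^ 2 * (q - 1) := Nat.mul_le_mul_left _ (by omega)
  have c1 : Nat.Coprime (q ^ 2) (q - 1) := by
    apply Nat.Coprime.pow_left
    have h1 : Nat.Coprime (q - 1 + 1) (q - 1) := by simp
    rwa [show q - 1 + 1 = q by omega] at h1
  have c2 : Nat.Coprime (q ^ 2 * (q - 1)) (q ^ 2 + 1) := by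
    apply Nat.Coprime.mul_left
    · simp
    · rw [Nat.coprime_iff_gcd_eq_one]
      set g := Nat.gcd (q - 1) (q ^ 2 + 1) with hg
      have g1 : g ∣ q - 1 := Nat.gcd_dvd_left _ _
      have g2 : g ∣ q ^ 2 + 1 := Nat.gcd_dvd_right _ _
      have g3 : g ∣ 2 := by
        have h1 : g ∣ (q - 1) * (q + 1) := g1.mul_right _
        have h2 := Nat.dvd_sub g2 h1
        have h3 : q ^ 2 + 1 - (q - 1) * (q + 1) = 2 := by
          obtain ⟨t, rfl⟩ : ∃ t, q = t + 1 := ⟨q - 1, by omega⟩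
          have : (t + 1) ^ 2 + 1 = (t + 1 - 1) * (t + 1 + 1) + 2 := by
            rw [Nat.add_sub_cancel]; ring
          omega
        rwa [h3] at h2
      rcases (Nat.dvd_prime Nat.prime_two).1 g3 with h | h
      · exact h
      · exfalso
        rw [h] at g1
        omega
  have hle : p ^ k ≤ q ^ 2 + 1 := by
    rcases pow_dvd_or hp c2 hk with h | h
    · rcases pow_dvd_or hp c1 h with h | h
      · have := Nat.le_of_dvd (by omega) h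
        omega
      · have := Nat.le_of_dvd (by omega) h
        omega
    · exact Nat.le_of_dvd (by omega) h
  calc (p ^ k) ^ 2 ≤ (q ^ 2 + 1) ^ 2 := Nat.pow_le_pow_left hle 2
    _ = (q ^ 2 + 1) * (q ^ 2 + 1) := by ring
    _ < (q ^ 2 * (q - 1)) * (q ^ 2 + 1) := Nat.mul_lt_mul_of_pos_right hbig (by omega)

theorem ree : ∀ m q : ℕ, 1 ≤ m → q = 3 ^ (2 * m + 1) → Good (q ^ 3 * (q - 1) * (q ^ 3 + 1)) := by
  intro m q hm hq
  have hq27 : 27 ≤ q := by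
    rw [hq]
    calc 27 = 3 ^ 3 := by norm_num
      _ ≤ 3 ^ (2 * m + 1) := Nat.pow_le_pow_right (by norm_num) (by omega)
  refine good_of_dvd fun p k hp hk => ?_
  have hQ2 : 27 * q ≤ q * q := Nat.mul_le_mul_right _ hq27
  have hQ3 : 27 * 27 * q ≤ q ^ 3 := by
    have h1 : q ^ 3 = q * q * q := by ring
    rw [h1]
    exact Nat.mul_le_mul_right _ (Nat.mul_le_mul hq27 hq27)
  have hbig : 4 * (q ^ 3 + 1) < q ^ 3 * (q - 1) := by
    calc 4 * (q ^ 3 + 1) < q ^ 3 * 26 := by omega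
      _ ≤ q ^ 3 * (q - 1) := Nat.mul_le_mul_left _ (by omega)
  have hle : p ^ k ≤ 2 * (q ^ 3 + 1) := by
    have hc : Nat.Coprime (q ^ 3) ((q - 1) * (q ^ 3 + 1)) := by
      apply Nat.Coprime.mul_right
      · apply Nat.Coprime.pow_left
        have h1 : Nat.Coprime (q - 1 + 1) (q - 1) := by simp
        rwa [show q - 1 + 1 = q by omega] at h1
      · simp
    rw [mul_assoc] at hk
    rcases pow_dvd_or hp hc hk with h | h
    · have := Nat.le_of_dvd (by omega) h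
      omega
    · have h1 : p ^ k ∣ (q ^ 3 + 1) * (q ^ 3 - 1) := by
        have h2 : q - 1 ∣ q ^ 3 - 1 := by
          have := Nat.sub_dvd_pow_sub_pow q 1 3
          simpa using this
        refine h.trans ?_
        rw [mul_comm]
        exact Nat.mul_dvd_mul_left _ h2
      exact sq_part hp (by omega) h1
  calc (p ^ k) ^ 2 ≤ (2 * (q ^ 3 + 1)) ^ 2 := Nat.pow_le_pow_left hle 2
    _ = 4 * (q ^ 3 + 1) * (q ^ 3 + 1) := by ring
    _ < (q ^ 3 * (q - 1)) * (q ^ 3 + 1) := Nat.mul_lt_mul_of_pos_right hbig (by omega)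

theorem tf4 : ∀ m q : ℕ, 1 ≤ m → q = 2 ^ (2 * m + 1) →
    Good (q ^ 12 * (q - 1) * (q ^ 3 + 1) * (q ^ 4 - 1) * (q ^ 6 + 1)) := by
  intro m q hm hq
  have hq8 : 8 ≤ q := by
    rw [hq]
    calc 8 = 2 ^ 3 := by norm_num
      _ ≤ 2 ^ (2 * m + 1) := Nat.pow_le_pow_right (by norm_num) (by omega)
  have h2q : 2 ∣ q := by rw [hq]; exact dvd_pow_self 2 (by omega)
  have hq2 : 2 ≤ q := by omega
  have hX : (q - 1) * (q ^ 3 + 1) * (q ^ 4 - 1) * (q ^ 6 + 1) ∣ P q 6 := by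
    have e2 : q ^ 2 - 1 = (q - 1) * (q + 1) := sq_sub_one (by omega)
    refine ⟨(q + 1) * (q ^ 3 - 1) * (q ^ 8 - 1) * (q ^ 10 - 1) * (q ^ 6 - 1), ?_⟩
    have h6 : q ^ 6 - 1 = (q ^ 3 + 1) * (q ^ 3 - 1) := sq_sub q 3
    have h12 : q ^ 12 - 1 = (q ^ 6 + 1) * (q ^ 6 - 1) := sq_sub q 6
    unfold P
    simp only [Finset.prod_range_succ, Finset.prod_range_zero, one_mul]
    norm_num
    rw [h12, e2, h6]
    ring
  refine core (l := 2) (f := 2 * m + 1) (s := 12) (D := 1)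
    (X := (q - 1) * (q ^ 3 + 1) * (q ^ 4 - 1) * (q ^ 6 + 1)) Nat.prime_two hq (by ring)
    ((coprime_P (q := q) (m := 6) Nat.prime_two h2q (by omega)).coprime_dvd_right hX) ?_ ?_
  · have h4 : q ^ 3 ≤ q ^ 4 - 1 := by
      have : q ^ 4 = q ^ 3 * q := by ring
      have h5 : q ^ 3 * 8 ≤ q ^ 3 * q := Nat.mul_le_mul_left _ hq8
      have h6 : 1 ≤ q ^ 3 := Nat.one_le_pow _ _ (by omega)
      omega
    calc q ^ 12 * 1 = 1 * q ^ 3 * q ^ 3 * q ^ 6 := by ring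
      _ ≤ (q - 1) * q ^ 3 * (q ^ 4 - 1) * q ^ 6 :=
          Nat.mul_le_mul_right _ (Nat.mul_le_mul (Nat.mul_le_mul_right _ (by omega)) h4)
      _ < (q - 1) * (q ^ 3 + 1) * (q ^ 4 - 1) * (q ^ 6 + 1) := by
          have h7 : (q - 1) * q ^ 3 * (q ^ 4 - 1) ≤ (q - 1) * (q ^ 3 + 1) * (q ^ 4 - 1) :=
            Nat.mul_le_mul_right _ (Nat.mul_le_mul_left _ (by omega))
          have h8 : 0 < (q - 1) * (q ^ 3 + 1) * (q ^ 4 - 1) := by
            apply Nat.mul_pos (Nat.mul_pos (by omega) (by omega))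
            have : 1 ≤ q ^ 3 := Nat.one_le_pow _ _ (by omega)
            omega
          calc (q - 1) * q ^ 3 * (q ^ 4 - 1) * q ^ 6 ≤ (q - 1) * (q ^ 3 + 1) * (q ^ 4 - 1) * q ^ 6 :=
                Nat.mul_le_mul_right _ h7
            _ < _ := Nat.mul_lt_mul_of_pos_left (by omega) h8
  · intro r k hr hrl hk
    have hrq : ¬ r ∣ q := by
      intro h
      rw [hq] at h
      exact hrl ((Nat.prime_dvd_prime_iff_eq hr Nat.prime_two).1 (hr.dvd_of_dvd_pow h))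
    refine (odd_le hr hrl hrq hq2 (by norm_num) (hk.trans hX)).trans ?_
    have h5 : q + 1 ≤ 2 * q := by omega
    have h6 : 8 ^ 6 ≤ q ^ 6 := Nat.pow_le_pow_left hq8 6
    calc (q + 1) ^ 6 * 2 ^ (6 - 1) ≤ (2 * q) ^ 6 * 2 ^ (6 - 1) :=
          Nat.mul_le_mul_right _ (Nat.pow_le_pow_left h5 6)
      _ = 2048 * q ^ 6 := by norm_num; ring
      _ ≤ q ^ 6 * q ^ 6 := Nat.mul_le_mul_right _ (by omega)
      _ = q ^ 12 := by ring

end Cfsg.Agent.H680.GoodExc
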