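import Cfsg.Agent.H538.StarSix
import Cfsg.Agent.H538.PrimePowerLift
import Cfsg.Agent.H538.TwoClosed
import Cfsg.Agent.S3861
import Cfsg.Agent.S3863

/-!
# Real class sizes: reduction to the module situation (helper680, for S4187, S4192)
-/

set_option autoImplicit false

namespace Cfsg.Agent.H680.BarSolv

open Cfsg.Agent.H538.RealGraph Cfsg.Agent.H538.SM Cfsg.Agent.H538

universe u

theorem solvable_of_module {H : Type u} [Group H] [Finite H]
    (hS : ∀ (K W : Type u) [Group K] [Finite K] [AddCommGroup W] [Finite W] [DistribMulAction K W],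
      SMod K W → Group.IsSolvable K)
    (W : Subgroup H) [hW : W.Normal] (hcomm : ∀ a ∈ W, ∀ b ∈ W, a * b = b * a) (hsq : ∀ a ∈ W, a * a = 1)
    (hne : ∃ w ∈ W, w ≠ 1)
    (hodd : ∀ w ∈ W, w ≠ 1 → ¬ 2 ∣ cs w)
    (hinv : ∀ w ∈ W, w ≠ 1 → ∀ x t : H, Commute x w → Commute t w → Odd (orderOf x) →
      t * x * t⁻¹ = x⁻¹ → x = 1)
    (hcop : ∀ x : H, IsConj x x⁻¹ → (∃ p k : ℕ, p.Prime ∧ p ≠ 2 ∧ orderOf x = p ^ k) →
      ∀ w ∈ W, w ≠ 1 → (cs x).Coprime (cs w)) :
    Group.IsSolvable H := by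
  classical
  let f : H →* MulAut W := MulAut.conjNormal
  let K := H ⧸ f.ker
  let ρ : K →* MulAut W := QuotientGroup.kerLift f
  have hρi : Function.Injective ρ := QuotientGroup.kerLift_injective f
  have hρ : ∀ (h : H) (w : W), ((ρ (QuotientGroup.mk h) w : W) : H) = h * w * h⁻¹ :=
    fun h w => MulAut.conjNormal_apply h w
  let i1 : CommGroup W :=
    { (inferInstance : Group W) with mul_comm := fun a b => Subtype.ext (hcomm a a.2 b b.2) }
  let i2 : DistribMulAction K (Additive W) :=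
    { smul := fun k w => Additive.ofMul (ρ k w.toMul)
      one_smul := fun w => by
        change Additive.ofMul (ρ 1 w.toMul) = w
        rw [map_one]; rfl
      mul_smul := fun a b w => by
        change Additive.ofMul (ρ (a * b) w.toMul) = Additive.ofMul (ρ a (ρ b w.toMul))
        rw [map_mul]; rfl
      smul_zero := fun a => by
        change Additive.ofMul (ρ a 1) = Additive.ofMul 1
        rw [map_one]
      smul_add := fun a v w => by
        change Additive.ofMul (ρ a (v.toMul * w.toMul)) = Additive.ofMul (ρ a v.toMul * ρ a w.toMul)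
        rw [map_mul] }
  have hsmul : ∀ (k : K) (w : Additive W), (k • w).toMul = ρ k w.toMul := fun k w => rfl
  have hfix : ∀ (h : H) (w : Additive W), ((QuotientGroup.mk h : K) • w = w) ↔
      h * ((w.toMul : W) : H) = ((w.toMul : W) : H) * h := by
    intro h w
    constructor
    · intro h1
      have h2 := congrArg (fun v : Additive W => ((v.toMul : W) : H)) h1
      change ((ρ (QuotientGroup.mk h) w.toMul : W) : H) = _ at h2
      rw [hρ] at h2
      exact mul_inv_eq_iff_eq_mul.1 h2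
    · intro h1
      apply Additive.toMul.injective
      apply Subtype.ext
      change ((ρ (QuotientGroup.mk h) w.toMul : W) : H) = _
      rw [hρ]
      exact mul_inv_eq_iff_eq_mul.2 h1
  have hstab : ∀ w : Additive W, (MulAction.stabilizer K w).comap (QuotientGroup.mk' f.ker) =
      Subgroup.centralizer ({((w.toMul : W) : H)} : Set H) := by
    intro w
    ext h
    rw [Subgroup.mem_comap, MulAction.mem_stabilizer_iff, Subgroup.mem_centralizer_singleton_iff]
    exact hfix h w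
  have hidx : ∀ w : Additive W, (MulAction.stabilizer K w).index = cs ((w.toMul : W) : H) := by
    intro w
    rw [← Subgroup.index_comap_of_surjective _ (QuotientGroup.mk'_surjective f.ker), hstab]
  have hw1 : ∀ w : Additive W, w ≠ 0 → ((w.toMul : W) : H) ≠ 1 := by
    intro w hw h
    apply hw
    apply Additive.toMul.injective
    exact Subtype.ext h
  have hmod : SMod K (Additive W) := by
    refine ⟨?_, ?_, ?_, ?_, ?_⟩
    · intro k hk
      apply hρi
      rw [map_one]
      ext w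
      have := congrArg (fun v : Additive W => ((v.toMul : W) : H)) (hk (Additive.ofMul w))
      exact this
    · intro w
      apply Additive.toMul.injective
      exact Subtype.ext (hsq _ w.toMul.2)
    · intro w hw
      rw [hidx]
      exact hodd _ w.toMul.2 (hw1 w hw)
    · intro w hw x t hx ht hxo hxt
      -- the centralizer of `w` is 2-closed
      let C := Subgroup.centralizer ({((w.toMul : W) : H)} : Set H)
      let φ : C →* MulAction.stabilizer K w :=
        ((QuotientGroup.mk' f.ker).comp C.subtype).codRestrict _ (fun c => by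
          have h1 : (c : H) ∈ (MulAction.stabilizer K w).comap (QuotientGroup.mk' f.ker) := by
            rw [hstab]; exact c.2
          exact h1)
      have hφ : Function.Surjective φ := by
        rintro ⟨k, hk⟩
        obtain ⟨h, rfl⟩ := QuotientGroup.mk_surjective k
        have h1 : h ∈ (MulAction.stabilizer K w).comap (QuotientGroup.mk' f.ker) := hk
        rw [hstab] at h1
        exact ⟨⟨h, h1⟩, rfl⟩
      obtain ⟨P⟩ : Nonempty (Sylow 2 C) := inferInstance
      have hP : (P : Subgroup C).Normal := by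
        rw [← Cfsg.Agent.S3861.result P]
        intro y hy1 hyo hyr
        obtain ⟨s, hs⟩ := isConj_iff.1 hyr
        apply hy1
        have := hinv _ w.toMul.2 (hw1 w hw) (y : H) (s : H) (Subgroup.mem_centralizer_singleton_iff.1 y.2)
          (Subgroup.mem_centralizer_singleton_iff.1 s.2) (by rwa [Subgroup.orderOf_coe]) (by
            have := congrArg Subtype.val hs
            simpa using this)
        exact Subtype.ext this
      have hP' : ((P.mapSurjective hφ : Sylow 2 (MulAction.stabilizer K w)) :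
          Subgroup (MulAction.stabilizer K w)).Normal := by
        rw [Sylow.coe_mapSurjective]
        exact hP.map φ hφ
      rw [← Cfsg.Agent.S3861.result] at hP'
      by_contra hx1
      have hx' : x ∈ MulAction.stabilizer K w := hx
      have ht' : t ∈ MulAction.stabilizer K w := ht
      refine hP' ⟨x, hx'⟩ (fun h => hx1 (congrArg Subtype.val h)) (by rwa [Subgroup.orderOf_mk]) ?_
      exact isConj_iff.2 ⟨⟨t, ht'⟩, Subtype.ext hxt⟩
    · intro x t hxt hp ho w hw
      have := Fact.mk hp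
      have hp2 : orderOf x ≠ 2 := by
        intro h
        rw [h] at ho
        exact absurd ho (by decide)
      obtain ⟨y, hyx, hyr, j, hj⟩ := PrimePowerLift.exists_real_lift (p := orderOf x) f.ker hp2 (q := x) (k := 1)
        (by rw [pow_one]) (isConj_iff.2 ⟨t, hxt⟩)
      have h1 := hcop y hyr ⟨_, j, hp, hp2, hj⟩ _ w.toMul.2 (hw1 w hw)
      rw [hidx]
      refine h1.coprime_dvd_left ?_
      change (Subgroup.centralizer ({x} : Set K)).index ∣ (Subgroup.centralizer ({y} : Set H)).index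
      rw [← Subgroup.index_comap_of_surjective _ (QuotientGroup.mk'_surjective f.ker)]
      apply Subgroup.index_dvd_of_le
      intro z hz
      rw [Subgroup.mem_comap, Subgroup.mem_centralizer_singleton_iff, ← hyx]
      rw [Subgroup.mem_centralizer_singleton_iff] at hz
      change (QuotientGroup.mk z : K) * QuotientGroup.mk y = QuotientGroup.mk y * QuotientGroup.mk z
      rw [← QuotientGroup.mk_mul, ← QuotientGroup.mk_mul, hz]
  have hK : Group.IsSolvable K := hS K (Additive W) hmod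
  rw [Group.isSolvable_iff_subgroup_quotient f.ker]
  refine ⟨?_, hK⟩
  obtain ⟨w, hwW, hw⟩ := hne
  have hker : ∀ c ∈ f.ker, Commute c w := by
    intro c hc
    have h1 : f c ⟨w, hwW⟩ = ⟨w, hwW⟩ := by
      rw [MonoidHom.mem_ker.1 hc]; rfl
    have h2 := congrArg Subtype.val h1
    rw [MulAut.conjNormal_apply] at h2
    exact mul_inv_eq_iff_eq_mul.1 h2
  apply TwoClosed.solvable_of_no_real
  intro x t hxo hxt
  have := hinv w hwW hw (x : H) (t : H) (hker _ x.2) (hker _ t.2) (by rwa [Subgroup.orderOf_coe]) (by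
    have := congrArg Subtype.val hxt
    simpa using this)
  exact Subtype.ext this

theorem conj_zpow' {G : Type*} [Group G] (x m : G) (k : ℕ) (w : G) (h : x * m * x⁻¹ = w * m)
    (hw : x * w = w * x) : x ^ k * m * (x ^ k)⁻¹ = w ^ k * m := by
  induction k with
  | zero => simp
  | succ k ih =>
    have h1 : x ^ (k + 1) * m * (x ^ (k + 1))⁻¹ = x * (x ^ k * m * (x ^ k)⁻¹) * x⁻¹ := by
      rw [pow_succ']; group
    have h2 : x * w ^ k = w ^ k * x := (show Commute x w from hw).pow_right k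
    rw [h1, ih]
    calc x * (w ^ k * m) * x⁻¹ = (x * w ^ k) * m * x⁻¹ := by group
      _ = w ^ k * (x * m * x⁻¹) := by rw [h2]; group
      _ = w ^ (k + 1) * m := by rw [h, pow_succ]; group

theorem bar_solvable {H : Type u} [Group H] [Finite H] (π₁ π₂ : Set ℕ) (hdisj : Disjoint π₁ π₂) (h2 : 2 ∈ π₁)
    (hS : ∀ (K W : Type u) [Group K] [Finite K] [AddCommGroup W] [Finite W] [DistribMulAction K W],
      SMod K W → Group.IsSolvable K)
    (i : H) (hii : i * i = 1) (N : Subgroup H) (hN : N.Normal) (hN2 : IsPGroup 2 N) (hiN : i ∈ N)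
    (hi : ∀ p : ℕ, p.Prime → p ∣ cs i → p ∈ π₂)
    (hsq : ∀ y : H, y * y = 1 → (∀ p : ℕ, p.Prime → p ∣ cs y → p ∈ π₁) ∨
      (∀ p : ℕ, p.Prime → p ∣ cs y → p ∈ π₂))
    (hcl : ∀ y : H, y * y = 1 → cs y ≠ 1 → (∀ p : ℕ, p.Prime → p ∣ cs y → p ∈ π₂) →
      ∀ x t : H, Commute x y → Commute t y → Odd (orderOf x) → t * x * t⁻¹ = x⁻¹ → x = 1)
    (hreal : ∀ x t : H, t * x * t⁻¹ = x⁻¹ → (∃ p k : ℕ, p.Prime ∧ p ≠ 2 ∧ orderOf x = p ^ k) →
      ∀ p : ℕ, p.Prime → p ∣ cs x → p ∈ π₁)
    (hcen : (∀ g : H, Commute g i) → Group.IsSolvable H) : Group.IsSolvable H := by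
  classical
  have : Fact (Nat.Prime 2) := ⟨Nat.prime_two⟩
  have h2' : 2 ∉ π₂ := fun h => Set.disjoint_left.1 hdisj h2 h
  have hcopr : ∀ a b : ℕ, (∀ p : ℕ, p.Prime → p ∣ a → p ∈ π₁) → (∀ p : ℕ, p.Prime → p ∣ b → p ∈ π₂) →
      a.Coprime b := by
    intro a b ha hb
    by_contra h
    obtain ⟨p, hp, hpa, hpb⟩ := Nat.Prime.not_coprime_iff_dvd.1 h
    exact Set.disjoint_left.1 hdisj (ha p hp hpa) (hb p hp hpb)
  have hcsodd : ∀ y : H, (∀ p : ℕ, p.Prime → p ∣ cs y → p ∈ π₂) → ¬ 2 ∣ cs y :=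
    fun y hy h => h2' (hy 2 Nat.prime_two h)
  by_cases hci : ∀ g : H, Commute g i
  · exact hcen hci
  -- `N` commutes with `i`
  have hNi : ∀ n ∈ N, Commute n i := by
    obtain ⟨P, hP⟩ := exists_sylow_le (p := 2) (Subgroup.centralizer ({i} : Set H)) (hcsodd i hi)
    intro n hn
    have h3 : N ≤ (P : Subgroup H) := by
      obtain ⟨Q, hQ⟩ := hN2.exists_le_sylow
      obtain ⟨g, rfl⟩ := MulAction.exists_smul_eq H Q P
      intro y hy
      rw [Sylow.coe_subgroup_smul, Subgroup.mem_pointwise_smul_iff_inv_smul_mem]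
      apply hQ
      rw [← map_inv, MulAut.smul_def, MulAut.conj_apply]
      exact hN.conj_mem y hy g⁻¹
    exact Subgroup.mem_centralizer_singleton_iff.1 (hP (h3 hn))
  -- the subgroup `E` of elements of square one in the centre of `N`
  let E : Subgroup H :=
    { carrier := {z | z ∈ N ∧ z * z = 1 ∧ ∀ n ∈ N, Commute n z}
      mul_mem' := by
        rintro a b ⟨ha1, ha2, ha3⟩ ⟨hb1, hb2, hb3⟩
        refine ⟨mul_mem ha1 hb1, ?_, fun n hn => (ha3 n hn).mul_right (hb3 n hn)⟩
        have h3 : a * b = b * a := hb3 a ha1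
        calc a * b * (a * b) = a * (b * a) * b := by group
          _ = (a * a) * (b * b) := by rw [← h3]; group
          _ = 1 := by rw [ha2, hb2, one_mul]
      one_mem' := ⟨one_mem N, one_mul 1, fun n _ => Commute.one_right n⟩
      inv_mem' := by
        rintro a ⟨ha1, ha2, ha3⟩
        refine ⟨inv_mem ha1, ?_, fun n hn => (ha3 n hn).inv_right⟩
        rw [← mul_inv_rev, ha2, inv_one] }
  have hmemE : ∀ z, z ∈ E ↔ z ∈ N ∧ z * z = 1 ∧ ∀ n ∈ N, Commute n z := fun z => Iff.rfl
  have hEn : E.Normal := by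
    refine ⟨fun z hz g => ?_⟩
    obtain ⟨h3, h4, h5⟩ := (hmemE z).1 hz
    refine (hmemE _).2 ⟨hN.conj_mem z h3 g, ?_, fun n hn => ?_⟩
    · calc g * z * g⁻¹ * (g * z * g⁻¹) = g * (z * z) * g⁻¹ := by group
        _ = 1 := by rw [h4]; group
    · have h6 := h5 (g⁻¹ * n * g) (by simpa using hN.conj_mem n hn g⁻¹)
      change n * (g * z * g⁻¹) = g * z * g⁻¹ * n
      calc n * (g * z * g⁻¹) = g * ((g⁻¹ * n * g) * z) * g⁻¹ := by group
        _ = g * (z * (g⁻¹ * n * g)) * g⁻¹ := by rw [h6.eq]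
        _ = _ := by group
  have hEc : ∀ a ∈ E, ∀ b ∈ E, a * b = b * a := fun a ha b hb => (((hmemE b).1 hb).2.2 a ((hmemE a).1 ha).1).eq
  have hEsq : ∀ a ∈ E, a * a = 1 := fun a ha => ((hmemE a).1 ha).2.1
  have hiE : i ∈ E := ⟨hiN, hii, hNi⟩
  have hclE : ∀ y ∈ E, ∀ z ∈ cl y, z ∈ E := by
    rintro y hy _ ⟨g, rfl⟩
    exact hEn.conj_mem y hy g
  -- the subgroup `M`
  let M : Subgroup H := Subgroup.closure {z | ∃ a ∈ cl i, ∃ b ∈ cl i, z = a * b⁻¹}
  have hME : M ≤ E := by
    refine (Subgroup.closure_le _).2 ?_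
    rintro z ⟨a, ha, b, hb, rfl⟩
    exact mul_mem (hclE i hiE a ha) (inv_mem (hclE i hiE b hb))
  have hMn : M.Normal := by
    refine ⟨fun z hz g => ?_⟩
    have h3 : M ≤ M.comap (MulAut.conj g).toMonoidHom := by
      refine (Subgroup.closure_le _).2 ?_
      rintro z ⟨a, ⟨k, rfl⟩, b, ⟨l, rfl⟩, rfl⟩
      apply Subgroup.subset_closure
      refine ⟨g * (k * i * k⁻¹) * g⁻¹, ⟨g * k, ?_⟩, g * (l * i * l⁻¹) * g⁻¹, ⟨g * l, ?_⟩, ?_⟩
      · change g * k * i * (g * k)⁻¹ = _
        group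
      · change g * l * i * (g * l)⁻¹ = _
        group
      · change g * ((k * i * k⁻¹) * (l * i * l⁻¹)⁻¹) * g⁻¹ = _
        group
    exact h3 hz
  have hMc : ∀ a ∈ M, ∀ b ∈ M, a * b = b * a := fun a ha b hb => hEc a (hME ha) b (hME hb)
  have hMsq : ∀ a ∈ M, a * a = 1 := fun a ha => hEsq a (hME ha)
  -- (2)
  have hM2 : ∀ y ∈ M, ∀ p : ℕ, p.Prime → p ∣ cs y → p ∈ π₂ := by
    intro y hy
    have hyE := hME hy
    rcases hsq y (hMsq y hy) with h3 | h3
    swap
    · exact h3
    by_cases hy1 : cs y = 1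
    · intro p hp hpy
      rw [hy1] at hpy
      exact absurd (Nat.dvd_one.1 hpy) hp.one_lt.ne'
    exfalso
    have hcop : (cs y).Coprime (cs i) := hcopr _ _ h3 hi
    have h4 : y * i * (y * i) = 1 := hEsq _ (mul_mem hyE hiE)
    have h5 := cs_mul_dvd hcop
    rcases hsq (y * i) h4 with h6 | h6
    · -- `cs (y * i) ≤ cs y`
      have h7 : cs (y * i) ∣ cs y := (hcopr _ _ h6 hi).dvd_of_dvd_mul_right h5
      have hle := Nat.le_of_dvd (cs_pos y) h7
      have h8 : M ≤
          { carrier := {m : H | ∀ u ∈ cl y, u * m ∈ cl y}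
            mul_mem' := fun {a b} ha hb u hu => by
              rw [← mul_assoc]; exact hb _ (ha u hu)
            one_mem' := fun u hu => by rwa [mul_one]
            inv_mem' := fun {a} ha u hu => by
              have hinj : Function.Injective (fun z : cl y => (⟨(z : H) * a, ha z z.2⟩ : cl y)) := by
                intro z z' hzz
                exact Subtype.ext (mul_right_cancel (congrArg Subtype.val hzz))
              obtain ⟨⟨z, hz⟩, hzu⟩ := Finite.surjective_of_injective hinj ⟨u, hu⟩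
              have h9 : z * a = u := congrArg Subtype.val hzu
              rw [← h9, mul_inv_cancel_right]
              exact hz : Subgroup H } := by
        refine (Subgroup.closure_le _).2 ?_
        rintro z ⟨a, ha, b, hb, rfl⟩ u hu
        rw [← mul_assoc]
        exact mul_div_mem_cl hcop hle hu ha hb
      have h9 : y * y ∈ cl y := h8 hy y (mem_cl_self y)
      rw [hMsq y hy] at h9
      obtain ⟨g, hg⟩ := h9
      change g * y * g⁻¹ = 1 at hg
      have h10 : y = 1 := by
        have : y = g⁻¹ * (g * y * g⁻¹) * g := by group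
        rw [this, hg]; group
      apply hy1
      rw [← ncard_cl, h10]
      have : cl (1 : H) = {1} := by
        ext z
        constructor
        · rintro ⟨g, rfl⟩
          simp
        · rintro rfl
          exact mem_cl_self 1
      rw [this, Set.ncard_singleton]
    · -- `cs (y * i) ≤ cs i`
      have h7 : cs (y * i) ∣ cs i := (hcopr _ _ h3 h6).symm.dvd_of_dvd_mul_left h5
      have hle := Nat.le_of_dvd (cs_pos i) h7
      obtain ⟨w, hw, hwy⟩ : ∃ w ∈ cl y, w ≠ y := by
        by_contra hcon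
        push Not at hcon
        have h1 : cl y = {y} := by
          ext z; constructor
          · exact hcon z
          · rintro rfl; exact mem_cl_self _
        apply hy1
        rw [← ncard_cl, h1, Set.ncard_singleton]
      have hwE := hclE y hyE w hw
      have hd : (w⁻¹ * y) * (w⁻¹ * y) = 1 := hEsq _ (mul_mem (inv_mem hwE) hyE)
      have heven : Even (cl i).ncard := by
        refine even_ncard_of_involution (cl i) (fun v => w⁻¹ * (y * v)) ?_ ?_ ?_
        · intro v hv
          exact div_mul_mem_cl hcop hle (mem_cl_self y) hw hv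
        · intro v _
          calc w⁻¹ * (y * (w⁻¹ * (y * v))) = ((w⁻¹ * y) * (w⁻¹ * y)) * v := by group
            _ = v := by rw [hd, one_mul]
        · intro v _ hv
          change w⁻¹ * (y * v) = v at hv
          rw [← mul_assoc] at hv
          have h8 : w⁻¹ * y = 1 := mul_eq_right.1 hv
          exact hwy (inv_mul_eq_one.1 h8)
      rw [ncard_cl] at heven
      exact hcsodd i hi heven.two_dvd
  -- (3)
  by_cases hex : ∃ x t : H, t * x * t⁻¹ = x⁻¹ ∧ (orderOf x).Prime ∧ Odd (orderOf x)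
  swap
  · apply TwoClosed.solvable_of_no_real
    intro x t hxo hxt
    by_contra hx1
    obtain ⟨p, hp, hpx⟩ := Nat.exists_prime_and_dvd (n := orderOf x) (by rwa [Ne, orderOf_eq_one_iff])
    have hpo : orderOf (x ^ (orderOf x / p)) = p := by
      rw [orderOf_pow_of_dvd (Nat.div_pos (Nat.le_of_dvd (orderOf_pos x) hpx) hp.pos).ne'
        (Nat.div_dvd_of_dvd hpx), Nat.div_div_self hpx (orderOf_pos x).ne']
    refine hex ⟨x ^ (orderOf x / p), t, ?_, ?_, ?_⟩
    · rw [← conj_pow, hxt, inv_pow]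
    · rw [hpo]; exact hp
    · rw [hpo]; exact hxo.of_dvd_nat hpx
  obtain ⟨x, t₀, hxt₀, hxp, hxo⟩ := hex
  obtain ⟨t, ⟨k, hk⟩, hxt⟩ := exists_two_element hxt₀
  have hx1 : x ≠ 1 := by
    rintro rfl
    rw [orderOf_one] at hxp
    exact Nat.not_prime_one hxp
  have hxne2 : orderOf x ≠ 2 := by
    intro h; rw [h] at hxo; exact absurd hxo (by decide)
  have hxcs : ∀ p : ℕ, p.Prime → p ∣ cs x → p ∈ π₁ :=
    hreal x t hxt ⟨orderOf x, 1, hxp, hxne2, (pow_one _).symm⟩
  have hxcop : ∀ y ∈ M, (cs x).Coprime (cs y) := fun y hy => hcopr _ _ hxcs (hM2 y hy)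
  -- (4)
  have hcenM : ∀ y ∈ M, Commute x y → ∀ g : H, Commute g y := by
    intro y hy hxy
    by_contra hcon
    have hy1 : cs y ≠ 1 := by
      intro h3
      apply hcon
      intro g
      have h4 : g ∈ Subgroup.centralizer ({y} : Set H) := by
        rw [Subgroup.index_eq_one.1 h3]; trivial
      exact Subgroup.mem_centralizer_singleton_iff.1 h4
    obtain ⟨P, hP⟩ := exists_sylow_le (p := 2) (Subgroup.centralizer ({y} : Set H)) (hcsodd y (hM2 y hy))
    obtain ⟨Q, hQ⟩ := exists_mem_sylow (p := 2) hk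
    obtain ⟨g, hg⟩ := exists_conj_mem Q P
    -- `g t g⁻¹` commutes with `y`
    have h3 := Subgroup.mem_centralizer_singleton_iff.1 (hP (hg t hQ))
    have h4 : Commute t (g⁻¹ * y * g) := by
      change t * (g⁻¹ * y * g) = g⁻¹ * y * g * t
      calc t * (g⁻¹ * y * g) = g⁻¹ * ((g * t * g⁻¹) * y) * g := by group
        _ = g⁻¹ * (y * (g * t * g⁻¹)) * g := by rw [h3]
        _ = _ := by group
    obtain ⟨c, hc, hcy⟩ := exists_centralizer_conj (hxcop y hy) (mem_cl_self y)
      (show g⁻¹ * y * g⁻¹⁻¹ ∈ cl y from ⟨g⁻¹, rfl⟩)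
    rw [inv_inv] at hcy
    have h5 : Commute x (g⁻¹ * y * g) := by
      rw [← hcy]
      have h6 : Commute x c := (show Commute c x from hc).symm
      exact (h6.mul_right hxy).mul_right h6.inv_right
    have h6 : g⁻¹ * y * g ∈ M := by
      have := hMn.conj_mem y hy g⁻¹
      rwa [inv_inv] at this
    have h7 : cs (g⁻¹ * y * g) = cs y := by
      have := cs_conj y g⁻¹
      rwa [inv_inv] at this
    exact hx1 (hcl _ (hMsq _ h6) (by rw [h7]; exact hy1) (hM2 _ h6) x t h5 h4 hxo hxt)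
  -- (5)
  have hcomm : ∀ m ∈ M, x * m * x⁻¹ * m⁻¹ ∈ M := fun m hm => mul_mem (hMn.conj_mem m hm x) (inv_mem hm)
  let W : Subgroup H :=
    { carrier := {w | ∃ m ∈ M, w = x * m * x⁻¹ * m⁻¹}
      mul_mem' := by
        rintro _ _ ⟨m, hm, rfl⟩ ⟨n, hn, rfl⟩
        refine ⟨m * n, mul_mem hm hn, ?_⟩
        have h3 := hMc (m⁻¹) (inv_mem hm) _ (hMn.conj_mem n hn x)
        calc x * m * x⁻¹ * m⁻¹ * (x * n * x⁻¹ * n⁻¹) = x * m * x⁻¹ * (m⁻¹ * (x * n * x⁻¹)) * n⁻¹ := by group
          _ = x * m * x⁻¹ * ((x * n * x⁻¹) * m⁻¹) * n⁻¹ := by rw [h3]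
          _ = x * (m * n) * x⁻¹ * (m⁻¹ * n⁻¹) := by group
          _ = x * (m * n) * x⁻¹ * (m * n)⁻¹ := by rw [hMc m⁻¹ (inv_mem hm) n⁻¹ (inv_mem hn), mul_inv_rev]
      one_mem' := ⟨1, one_mem M, by group⟩
      inv_mem' := by
        rintro _ ⟨m, hm, rfl⟩
        refine ⟨m⁻¹, inv_mem hm, ?_⟩
        have h3 := hMc m hm _ (hMn.conj_mem m⁻¹ (inv_mem hm) x)
        calc (x * m * x⁻¹ * m⁻¹)⁻¹ = m * (x * m⁻¹ * x⁻¹) := by group
          _ = x * m⁻¹ * x⁻¹ * m := h3
          _ = _ := by rw [inv_inv] }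
  have hmemW : ∀ w, w ∈ W ↔ ∃ m ∈ M, w = x * m * x⁻¹ * m⁻¹ := fun w => Iff.rfl
  have hWM : W ≤ M := by
    rintro _ ⟨m, hm, rfl⟩
    exact hcomm m hm
  have hWn : W.Normal := by
    refine ⟨fun w hw g => ?_⟩
    obtain ⟨c, hc, hcw⟩ := exists_centralizer_conj (hxcop w (hWM hw)) (mem_cl_self w)
      (show g * w * g⁻¹ ∈ cl w from ⟨g, rfl⟩)
    rw [← hcw]
    obtain ⟨m, hm, rfl⟩ := hw
    refine ⟨c * m * c⁻¹, hMn.conj_mem m hm c, ?_⟩
    have hc' : x⁻¹ * c⁻¹ = c⁻¹ * x⁻¹ := by
      rw [← mul_inv_rev, ← mul_inv_rev, hc]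
    calc c * (x * m * x⁻¹ * m⁻¹) * c⁻¹ = (c * x) * m * x⁻¹ * m⁻¹ * c⁻¹ := by group
      _ = (x * c) * m * x⁻¹ * m⁻¹ * c⁻¹ := by rw [hc]
      _ = x * c * m * (x⁻¹ * c⁻¹) * c * m⁻¹ * c⁻¹ := by
        rw [hc']
        have h3 : c⁻¹ * x⁻¹ = x⁻¹ * c⁻¹ := hc'.symm
        rw [h3]; group
      _ = x * c * m * (c⁻¹ * x⁻¹) * c * m⁻¹ * c⁻¹ := by rw [hc']
      _ = x * (c * m * c⁻¹) * x⁻¹ * (c * m * c⁻¹)⁻¹ := by group
  have hWx : ∀ w ∈ W, Commute x w → w = 1 := by
    rintro w ⟨m, hm, hwm⟩ hxw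
    have h3 : x * m * x⁻¹ = w * m := by rw [hwm]; group
    have h4 := conj_zpow' x m (orderOf x) w h3 hxw
    rw [pow_orderOf_eq_one, one_mul, inv_one, mul_one] at h4
    have h5 : w ^ orderOf x = 1 := (mul_eq_right.1 h4.symm)
    have hwW : w ∈ W := ⟨m, hm, hwm⟩
    have h6 : w ^ 2 = 1 := by rw [pow_two]; exact hMsq w (hWM hwW)
    have h7 := Nat.dvd_gcd (orderOf_dvd_of_pow_eq_one h5) (orderOf_dvd_of_pow_eq_one h6)
    rw [Nat.Coprime.gcd_eq_one (Nat.Coprime.symm (Nat.coprime_two_left.2 hxo))] at h7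
    exact orderOf_eq_one_iff.1 (Nat.dvd_one.1 h7)
  have hWcs : ∀ w ∈ W, w ≠ 1 → cs w ≠ 1 := by
    intro w hw hw1 h3
    apply hw1
    apply hWx w hw
    have h4 : x ∈ Subgroup.centralizer ({w} : Set H) := by
      rw [Subgroup.index_eq_one.1 h3]; trivial
    exact Subgroup.mem_centralizer_singleton_iff.1 h4
  -- `W ≠ 1`
  have hWne : ∃ w ∈ W, w ≠ 1 := by
    by_contra hcon
    push Not at hcon
    have hMx : ∀ m ∈ M, Commute x m := by
      intro m hm
      have h3 := hcon _ ⟨m, hm, rfl⟩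
      have h4 : x * m * x⁻¹ = m := mul_inv_eq_one.1 h3
      exact mul_inv_eq_iff_eq_mul.1 h4
    have hMz : ∀ m ∈ M, ∀ g : H, Commute g m := fun m hm => hcenM m hm (hMx m hm)
    have hz : ∀ g : H, g * i * g⁻¹ * i⁻¹ ∈ M := fun g =>
      Subgroup.subset_closure ⟨_, ⟨g, rfl⟩, _, mem_cl_self i, rfl⟩
    let z : H →* M :=
      { toFun := fun g => ⟨g * i * g⁻¹ * i⁻¹, hz g⟩
        map_one' := Subtype.ext (by simp)
        map_mul' := fun g h => by
          apply Subtype.ext
          change g * h * i * (g * h)⁻¹ * i⁻¹ = g * i * g⁻¹ * i⁻¹ * (h * i * h⁻¹ * i⁻¹)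
          have h3 := (hMz _ (hz h) (g * i * g⁻¹ * i⁻¹)).eq
          have h4 := (hMz _ (hz h) g).eq
          calc g * h * i * (g * h)⁻¹ * i⁻¹ = g * (h * i * h⁻¹ * i⁻¹) * i * g⁻¹ * i⁻¹ := by group
            _ = (h * i * h⁻¹ * i⁻¹) * g * i * g⁻¹ * i⁻¹ := by rw [h4]
            _ = (h * i * h⁻¹ * i⁻¹) * (g * i * g⁻¹ * i⁻¹) := by group
            _ = _ := h3.symm }
    have hker : z.ker = Subgroup.centralizer ({i} : Set H) := by
      ext g
      rw [MonoidHom.mem_ker, Subgroup.mem_centralizer_singleton_iff]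
      constructor
      · intro h3
        have h4 : g * i * g⁻¹ * i⁻¹ = 1 := congrArg Subtype.val h3
        exact mul_inv_eq_iff_eq_mul.1 (mul_inv_eq_one.1 h4)
      · intro h3
        apply Subtype.ext
        change g * i * g⁻¹ * i⁻¹ = 1
        rw [h3]; group
    have h3 : cs i = Nat.card z.range := by
      change (Subgroup.centralizer ({i} : Set H)).index = _
      rw [← hker, Subgroup.index_ker]
    have h4 : IsPGroup 2 z.range := by
      intro y
      refine ⟨1, ?_⟩
      rw [pow_one, pow_two]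
      exact Subtype.ext (Subtype.ext (hMsq _ (y : M).2))
    obtain ⟨l, hl⟩ := IsPGroup.iff_card.1 h4
    rw [hl] at h3
    have h5 : l = 0 := by
      by_contra h6
      exact hcsodd i hi (h3 ▸ dvd_pow_self 2 h6)
    rw [h5, pow_zero] at h3
    apply hci
    intro g
    have h6 : g ∈ Subgroup.centralizer ({i} : Set H) := by
      rw [Subgroup.index_eq_one.1 h3]; trivial
    exact Subgroup.mem_centralizer_singleton_iff.1 h6
  -- (6)
  exact solvable_of_module hS W (fun a ha b hb => hMc a (hWM ha) b (hWM hb)) (fun a ha => hMsq a (hWM ha)) hWne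
    (fun w hw _ => hcsodd w (hM2 w (hWM hw)))
    (fun w hw hw1 x' t' h3 h4 h5 h6 =>
      hcl w (hMsq w (hWM hw)) (hWcs w hw hw1) (hM2 w (hWM hw)) x' t' h3 h4 h5 h6)
    (fun x' hx' hp' w hw _ => by
      obtain ⟨s, hs⟩ := isConj_iff.1 hx'
      exact hcopr _ _ (hreal x' s hs hp') (hM2 w (hWM hw)))

end Cfsg.Agent.H680.BarSolv
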