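import Cfsg.Prelude.Def_Blocks
import Cfsg.Agent.H678.GoodDef
import Cfsg.Agent.Lib.MinNormal
import Cfsg.Agent.H677.CodPrime

/-!
# `Good` for the order of a nonabelian chief factor, and codegrees (helper680)
-/

set_option autoImplicit false

namespace Cfsg.Agent.H680.GoodChief

open Cfsg Cfsg.Agent.H678

theorem Good.pow {N : ℕ} (h : Good N) {m : ℕ} (hm : 0 < m) : Good (N ^ m) := by
  intro p hp
  rw [Nat.factorization_pow]
  simp only [Finsupp.coe_smul, Pi.smul_apply, smul_eq_mul]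
  calc (p ^ (m * N.factorization p)) ^ 2 = ((p ^ N.factorization p) ^ 2) ^ m := by
        rw [← pow_mul, ← pow_mul, ← pow_mul]; ring_nf
    _ < N ^ m := Nat.pow_lt_pow_left (h p hp) hm.ne'

universe u

/-- The assumption FACT A. -/
def FactA : Prop := ∀ (S : Type u) [Group S] [Finite S] [IsSimpleGroup S], (¬ ∀ a b : S, a * b = b * a) →
  Good (Nat.card S)

/-- The order of a nonabelian minimal normal subgroup is `Good`. -/
theorem good_minimal (FA : FactA.{u}) {G : Type u} [Group G] [Finite G] (N : Subgroup G) [N.Normal]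
    (hmin : ∀ M : Subgroup G, M.Normal → M ≤ N → M = ⊥ ∨ M = N)
    (hna : ∃ x ∈ N, ∃ y ∈ N, x * y ≠ y * x) : Good (Nat.card N) := by
  have hN : N ≠ ⊥ := by
    rintro rfl
    obtain ⟨x, hx, y, hy, hxy⟩ := hna
    rw [Subgroup.mem_bot] at hx hy
    exact hxy (by rw [hx, hy])
  obtain ⟨T, m, hTN, hT, hm, ⟨e⟩⟩ := Lib.MinNormal.exists_mulEquiv_pi N hN hmin
  rw [Nat.card_congr e.toEquiv, Nat.card_pi, Finset.prod_const, Finset.card_univ, Fintype.card_fin]
  refine Good.pow (FA T ?_) hm
  intro hab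
  obtain ⟨x, hx, y, hy, hxy⟩ := hna
  apply hxy
  have h1 : e ⟨x, hx⟩ * e ⟨y, hy⟩ = e ⟨y, hy⟩ * e ⟨x, hx⟩ := by
    funext i
    exact hab _ _
  rw [← map_mul, ← map_mul] at h1
  have := e.injective h1
  exact congrArg Subtype.val this

/-- The order of a nonabelian chief factor is `Good`. -/
theorem good_chief (FA : FactA.{u}) {G : Type u} [Group G] [Finite G] (L K : Subgroup G) [L.Normal] [K.Normal]
    (hLK : L < K) (hchief : ∀ M : Subgroup G, M.Normal → L ≤ M → M ≤ K → M = L ∨ M = K)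
    (hnonab : ∃ x ∈ K, ∃ y ∈ K, x * y * x⁻¹ * y⁻¹ ∉ L) : Good (L.relIndex K) := by
  have hcard : L.relIndex K = Nat.card (K.map (QuotientGroup.mk' L)) := by
    have h1 : (QuotientGroup.mk' L).ker ≤ K := by
      rw [QuotientGroup.ker_mk']
      exact hLK.le
    have h2 := Subgroup.relIndex_ker (QuotientGroup.mk' L) (K := K)
    rw [QuotientGroup.ker_mk'] at h2
    exact h2
  rw [hcard]
  have hnor : (K.map (QuotientGroup.mk' L)).Normal :=
    Subgroup.Normal.map inferInstance _ (QuotientGroup.mk'_surjective L)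
  refine good_minimal FA (K.map (QuotientGroup.mk' L)) ?_ ?_
  · intro M hM hMK
    have h1 : (M.comap (QuotientGroup.mk' L)).Normal := hM.comap _
    have h2 : L ≤ M.comap (QuotientGroup.mk' L) := by
      intro x hx
      rw [Subgroup.mem_comap]
      have : QuotientGroup.mk' L x = 1 := (QuotientGroup.eq_one_iff x).2 hx
      rw [this]
      exact one_mem _
    have h3 : M.comap (QuotientGroup.mk' L) ≤ K := by
      intro x hx
      obtain ⟨y, hy, hxy⟩ := hMK hx
      have h4 : y⁻¹ * x ∈ L := by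
        have : (QuotientGroup.mk' L) (y⁻¹ * x) = 1 := by
          rw [map_mul, map_inv, hxy]; group
        rwa [QuotientGroup.mk'_apply, QuotientGroup.eq_one_iff] at this
      have h5 := K.mul_mem hy (hLK.le h4)
      rwa [mul_inv_cancel_left] at h5
    have h4 : (M.comap (QuotientGroup.mk' L)).map (QuotientGroup.mk' L) = M :=
      Subgroup.map_comap_eq_self_of_surjective (QuotientGroup.mk'_surjective L) M
    rcases hchief _ h1 h2 h3 with h | h
    · left
      rw [← h4, h]
      rw [eq_bot_iff]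
      rintro _ ⟨x, hx, rfl⟩
      exact (QuotientGroup.eq_one_iff x).2 hx
    · right
      rw [← h4, h]
  · obtain ⟨x, hx, y, hy, hxy⟩ := hnonab
    refine ⟨QuotientGroup.mk' L x, ⟨x, hx, rfl⟩, QuotientGroup.mk' L y, ⟨y, hy, rfl⟩, ?_⟩
    intro h
    apply hxy
    have h1 : QuotientGroup.mk' L (x * y * x⁻¹ * y⁻¹) = 1 := by
      rw [map_mul, map_mul, map_mul, map_inv, map_inv, h]
      group
    rwa [QuotientGroup.mk'_apply, QuotientGroup.eq_one_iff] at h1

/-- The statement S4809, from FACT A. -/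
theorem chief_lt (FA : FactA.{u}) {G : Type u} [Group G] [Finite G] (p : ℕ) [Fact p.Prime] (χ : IrrCharacter G)
    (k : ℕ) (hcod : Nat.card G = p ^ k * charDegree (χ : G → ℂ)) (L K : Subgroup G) [L.Normal] [K.Normal]
    (hLK : L < K) (hchief : ∀ M : Subgroup G, M.Normal → L ≤ M → M ≤ K → M = L ∨ M = K)
    (hnonab : ∃ x ∈ K, ∃ y ∈ K, x * y * x⁻¹ * y⁻¹ ∉ L) : (L.relIndex K).factorization p < k := by
  have hp : p.Prime := Fact.out
  have hgood := good_chief FA L K hLK hchief hnonab p hp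
  have hnt : Nontrivial G := by
    obtain ⟨x, hx, y, hy, hxy⟩ := hnonab
    refine ⟨⟨x * y * x⁻¹ * y⁻¹, 1, fun h => hxy (h ▸ L.one_mem)⟩⟩
  have h1 := H677.CodPrime.charDegree_sq_lt χ
  have h2 : L.relIndex K ≤ Nat.card G := by
    refine Nat.le_of_dvd Nat.card_pos ?_
    exact (Subgroup.relIndex_dvd_card L K).trans (Subgroup.card_subgroup_dvd_card K)
  set d := charDegree (χ : G → ℂ) with hd
  have hd0 : 0 < d := by
    rcases Nat.eq_zero_or_pos d with h | h
    · rw [h, mul_zero] at hcod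
      exact absurd hcod Nat.card_pos.ne'
    · exact h
  have h3 : d < p ^ k := by
    rw [hcod, pow_two] at h1
    exact lt_of_mul_lt_mul_right h1 (Nat.zero_le _)
  have h4 : Nat.card G ≤ (p ^ k) ^ 2 := by
    rw [hcod, pow_two]
    exact Nat.mul_le_mul_left _ h3.le
  have h5 : (p ^ (L.relIndex K).factorization p) ^ 2 < (p ^ k) ^ 2 := lt_of_lt_of_le hgood (h2.trans h4)
  have h6 := lt_of_pow_lt_pow_left₀ 2 (Nat.zero_le _) h5
  exact (Nat.pow_lt_pow_iff_right hp.one_lt).1 h6

end Cfsg.Agent.H680.GoodChief
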