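import Cfsg.Agent.Lib.Cores
import Cfsg.Agent.BpSpor.Act

/-!
Overgroups `K` of a (quasi)simple subgroup `X` in a finite group `G` with `p ∥ |G|`, `p ∣ |X|` (for the sporadic rows
of S5900).  `T = O_{p'}(K)`; `K / T` has a simple normal subgroup `M` containing all elements of order `p`, hence
`X T / T ≤ M`; if the classification leaves no room, `M = X T / T`.  `T` is controlled by Frattini.
-/

set_option autoImplicit false

namespace Cfsg.Agent.H680.Over

open Subgroup Cfsg Cfsg.Agent.Lib.Cores

universe u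

section

variable {K : Type u} [Group K] [Finite K] {p : ℕ}

omit [Finite K] in
/-- a normal subgroup of index prime to `p` contains the elements of order `p` -/
theorem mem_of_index {A : Subgroup K} [A.Normal] (hA : A.index.Coprime p) {x : K} (hx : orderOf x = p) : x ∈ A := by
  rw [← QuotientGroup.eq_one_iff]
  have h1 : orderOf (x : K ⧸ A) ∣ p := by
    rw [orderOf_dvd_iff_pow_eq_one, ← QuotientGroup.mk_pow, ← hx, pow_orderOf_eq_one]
    rfl
  have h2 : orderOf (x : K ⧸ A) ∣ A.index := by
    rw [index]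
    exact orderOf_dvd_natCard _
  exact orderOf_eq_one_iff.1 (Nat.eq_one_of_dvd_coprimes hA h2 h1)

omit [Finite K] in
theorem index_coprime (hp : p.Prime) (hp2 : ¬ p ^ 2 ∣ Nat.card K) {A : Subgroup K} (hA : p ∣ Nat.card A) :
    A.index.Coprime p := by
  rw [Nat.coprime_comm, Nat.Prime.coprime_iff_not_dvd hp]
  intro h
  apply hp2
  rw [← A.card_mul_index, pow_two]
  exact Nat.mul_dvd_mul hA h

/-- the subgroup generated by the elements of order `p` -/
def E (p : ℕ) (K : Type u) [Group K] : Subgroup K := closure {x : K | orderOf x = p}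

omit [Finite K] in
instance E_char : (E p K).Characteristic := by
  rw [characteristic_iff_map_le]
  intro φ
  rw [E, MonoidHom.map_closure]
  apply Subgroup.closure_mono
  rintro _ ⟨x, hx, rfl⟩
  change orderOf (φ x) = p
  rw [MulEquiv.orderOf_eq]
  exact hx

omit [Finite K] in
instance E_normal : (E p K).Normal := inferInstance

omit [Finite K] in
theorem mem_E {x : K} (hx : orderOf x = p) : x ∈ E p K := subset_closure hx

theorem dvd_card_E (hp : p.Prime) (h : p ∣ Nat.card K) : p ∣ Nat.card (E p K) := by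
  have : Fact p.Prime := ⟨hp⟩
  obtain ⟨x, hx⟩ := exists_prime_orderOf_dvd_card' p h
  have h2 : orderOf (⟨x, mem_E hx⟩ : E p K) ∣ Nat.card (E p K) := orderOf_dvd_natCard _
  rwa [Subgroup.orderOf_mk, hx] at h2

/-- `O_{p'}(K) = 1` and `p ∥ |K|`: the subgroup generated by the elements of order `p` is simple -/
theorem isSimple_E (hp : p.Prime) (hpK : p ∣ Nat.card K) (hp2 : ¬ p ^ 2 ∣ Nat.card K)
    (hO : pPrimeCore p K = ⊥) : IsSimpleGroup (E p K) := by
  have hpE := dvd_card_E (K := K) hp hpK
  have hE2 : ¬ p ^ 2 ∣ Nat.card (E p K) := fun h => hp2 (h.trans (card_subgroup_dvd_card _))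
  have hnt : Nontrivial (E p K) := by
    by_contra hcon
    rw [not_nontrivial_iff_subsingleton] at hcon
    rw [Nat.card_of_subsingleton (1 : E p K)] at hpE
    exact hp.one_lt.ne' (Nat.dvd_one.1 hpE)
  refine ⟨fun A hA => ?_⟩
  by_cases hpA : p ∣ Nat.card A
  · right
    have hi := index_coprime hp hE2 hpA
    have h1 : E p K ≤ A.map (E p K).subtype := by
      refine (closure_le _).2 fun x hx => ?_
      have hx' : orderOf x = p := hx
      have h2 : (⟨x, mem_E hx'⟩ : E p K) ∈ A := mem_of_index hi (by rw [Subgroup.orderOf_mk]; exact hx')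
      exact ⟨_, h2, rfl⟩
    rw [eq_top_iff]
    intro y _
    obtain ⟨z, hz, hzy⟩ := h1 y.2
    have : z = y := Subtype.ext hzy
    exact this ▸ hz
  · left
    have h1 : A ≤ pPrimeCore p (E p K) := le_pPrimeCore hA (by
      rw [Nat.coprime_comm, Nat.Prime.coprime_iff_not_dvd hp]; exact hpA)
    have h2 := map_subtype_pPrimeCore p (E_normal (K := K) (p := p))
    rw [hO, inf_bot_eq, Subgroup.map_eq_bot_iff, ker_subtype, le_bot_iff] at h2
    rw [eq_bot_iff, ← h2]
    exact h1

/-- the core lemma -/
theorem core_over {n : ℕ} (hp : p.Prime) (hp2 : ¬ p ^ 2 ∣ Nat.card K) (X : Subgroup K)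
    (hpX : p ∣ Nat.card X)
    (hX1 : ∀ A : Subgroup X, A.Normal → p ∣ Nat.card A → A = ⊤)
    (hX2 : ∀ A : Subgroup X, A.Normal → ¬ p ∣ Nat.card A → n ∣ A.index)
    (hn : ¬ n ∣ p)
    (hS : ∀ (S : Type u) [Group S] [Finite S] [IsSimpleGroup S], (¬ ∀ a b : S, a * b = b * a) → n ∣ Nat.card S →
      Nat.card S ∣ Nat.card K → Nat.card S = n) :
    (E p (K ⧸ pPrimeCore p K)) = X.map (QuotientGroup.mk' (pPrimeCore p K)) ∧
      Nat.card (E p (K ⧸ pPrimeCore p K)) = n ∧ IsSimpleGroup (E p (K ⧸ pPrimeCore p K)) := by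
  set T := pPrimeCore p K with hT
  set f := QuotientGroup.mk' T with hf
  set M := E p (K ⧸ T) with hM
  have hXle : X.map f ≤ M := by
    -- the preimage in X is normal and contains all elements of order p
    have h1 : ((M.comap f).subgroupOf X).Normal := inferInstance
    have h2 : p ∣ Nat.card ((M.comap f).subgroupOf X) := by
      have : Fact p.Prime := ⟨hp⟩
      obtain ⟨x, hx⟩ := exists_prime_orderOf_dvd_card' p hpX
      have h3 : x ∈ (M.comap f).subgroupOf X := by
        rw [mem_subgroupOf, mem_comap]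
        have h4 : orderOf (f (x : K)) ∣ p := by
          have h4' : (x : K) ^ p = 1 := by
            rw [← SubmonoidClass.coe_pow, ← hx, pow_orderOf_eq_one]
            rfl
          rw [orderOf_dvd_iff_pow_eq_one, ← map_pow, h4', map_one]
        rcases (Nat.dvd_prime hp).1 h4 with h5 | h5
        · rw [orderOf_eq_one_iff.1 h5]
          exact one_mem _
        · exact mem_E h5
      have h6 : orderOf (⟨x, h3⟩ : (M.comap f).subgroupOf X) ∣ Nat.card ((M.comap f).subgroupOf X) :=
        orderOf_dvd_natCard _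
      rwa [Subgroup.orderOf_mk, hx] at h6
    have h3 := hX1 _ h1 h2
    rw [subgroupOf_eq_top] at h3
    exact map_le_iff_le_comap.2 h3
  have hTc : (Nat.card T).Coprime p := pPrimeCore_coprime p
  have hcK : Nat.card K = Nat.card (K ⧸ T) * Nat.card T := card_eq_card_quotient_mul_card_subgroup T
  have hpK : p ∣ Nat.card K := hpX.trans (card_subgroup_dvd_card _)
  have hpQ : p ∣ Nat.card (K ⧸ T) := by
    rw [hcK] at hpK
    exact hTc.symm.dvd_of_dvd_mul_right hpK
  have hp2Q : ¬ p ^ 2 ∣ Nat.card (K ⧸ T) := fun h => hp2 (h.trans (hcK ▸ Dvd.intro _ rfl))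
  have hsim : IsSimpleGroup M := isSimple_E hp hpQ hp2Q (pPrimeCore_quotient_pPrimeCore p)
  -- the order of X T / T
  have hnX : n ∣ Nat.card (X.map f) := by
    have h1 : (T.subgroupOf X).Normal := inferInstance
    have h2 : ¬ p ∣ Nat.card (T.subgroupOf X) := by
      intro h
      have h3 : Nat.card (T.subgroupOf X) ∣ Nat.card T := by
        rw [← relIndex_bot_left, ← relIndex_bot_left]
        have h4 : (⊥ : Subgroup X).relIndex (T.subgroupOf X) = Nat.card ((T.subgroupOf X).map X.subtype) := by
          rw [relIndex_bot_left, card_map_of_injective X.subtype_injective]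
        rw [h4, relIndex_bot_left, subgroupOf_map_subtype]
        exact card_dvd_of_le inf_le_left
      exact (Nat.Prime.coprime_iff_not_dvd hp).1 hTc.symm (h.trans h3)
    have h3 := hX2 _ h1 h2
    have h4 : Nat.card (X.map f) = (T.subgroupOf X).index := by
      have h5 : (f.domRestrict X).ker = T.subgroupOf X := by
        rw [MonoidHom.ker_domRestrict, hf, QuotientGroup.ker_mk']
      rw [← h5, index_ker, MonoidHom.domRestrict_range]
    rwa [h4]
  have hcM : Nat.card (X.map f) ∣ Nat.card M := card_dvd_of_le hXle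
  have hMK : Nat.card M ∣ Nat.card K :=
    (card_subgroup_dvd_card M).trans (hcK ▸ Dvd.intro _ rfl)
  have hna : ¬ ∀ a b : M, a * b = b * a := by
    intro hab
    have hcom : ∀ a b : M, a * b = b * a := hab
    -- then |M| is prime
    have hprime : (Nat.card M).Prime := by
      let _ : CommGroup M := { (inferInstance : Group M) with mul_comm := hcom }
      exact IsSimpleGroup.prime_card
    have hpM : p ∣ Nat.card M := dvd_card_E hp hpQ
    have hMp : Nat.card M = p := ((Nat.prime_dvd_prime_iff_eq hp hprime).1 hpM).symm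
    exact hn (hMp ▸ hnX.trans hcM)
  have hMn : Nat.card M = n := hS M hna (hnX.trans hcM) hMK
  refine ⟨?_, hMn, hsim⟩
  have hXn : Nat.card (X.map f) = n := Nat.dvd_antisymm (hMn ▸ hcM) hnX
  exact (eq_of_le_of_card_ge hXle (by rw [hXn, hMn])).symm

/-- Frattini: a Sylow subgroup `R` of a normal subgroup `T`, and a simple normal subgroup `M` of `K / T` -/
theorem frattini_over (hp : p.Prime) (T : Subgroup K) [T.Normal] (M : Subgroup (K ⧸ T)) (hMn : M.Normal)
    (hMs : IsSimpleGroup M) (hpM : p ∣ Nat.card M) {r : ℕ} (hr : r.Prime) (R : Sylow r T) {Q : Subgroup K}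
    (hQ : (R : Subgroup T).map T.subtype = Q) :
    Nat.card M ∣ Nat.card (MulAut Q) ∨ ∃ c : K, orderOf c = p ∧ Q ≤ centralizer {c} := by
  classical
  have hpF : Fact p.Prime := ⟨hp⟩
  have hrF : Fact r.Prime := ⟨hr⟩
  set f := QuotientGroup.mk' T with hf
  have hker : f.ker = T := QuotientGroup.ker_mk' T
  set L := M.comap f with hL
  have hLn : L.Normal := hMn.comap f
  have hTL : T ≤ L := by
    rw [← hker]; exact MonoidHom.ker_le_comap f M
  have hfr : normalizer (Q : Set K) ⊔ T = ⊤ := hQ ▸ Sylow.normalizer_sup_eq_top R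
  set C := centralizer (Q : Set K) ⊓ L with hC
  -- the image of C is normal
  have hCn : (C.map f).Normal := by
    have h1 : ∀ g ∈ normalizer (Q : Set K), ∀ c ∈ C, g * c * g⁻¹ ∈ C := by
      intro g hg c hc
      refine ⟨?_, hLn.conj_mem c hc.2 g⟩
      have hc1 := mem_centralizer_iff.1 hc.1
      change _ ∈ centralizer (Q : Set K)
      rw [mem_centralizer_iff]
      intro x hx
      have h2 : g⁻¹ * x * g ∈ (Q : Set K) := by
        have := (mem_normalizer_iff.1 (inv_mem hg) x).1 hx
        simpa using this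
      have h3 := hc1 _ h2
      calc x * (g * c * g⁻¹) = g * ((g⁻¹ * x * g) * c) * g⁻¹ := by group
        _ = g * (c * (g⁻¹ * x * g)) * g⁻¹ := by rw [h3]
        _ = g * c * g⁻¹ * x := by group
    refine ⟨?_⟩
    rintro _ ⟨c, hc, rfl⟩ y
    obtain ⟨g, rfl⟩ := QuotientGroup.mk'_surjective T y
    have hg : g ∈ normalizer (Q : Set K) ⊔ T := hfr ▸ mem_top g
    obtain ⟨a, ha, t, ht, rfl⟩ := mem_sup_of_normal_right.1 hg
    refine ⟨a * c * a⁻¹, h1 a ha c hc, ?_⟩
    have hft : f t = 1 := by
      rw [← MonoidHom.mem_ker, hker]; exact ht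
    simp only [map_mul, map_inv]
    change f a * f c * (f a)⁻¹ = f (a * t) * f c * (f (a * t))⁻¹
    rw [map_mul, hft, mul_one]
  have hCM : C.map f ≤ M := map_le_iff_le_comap.2 inf_le_right
  rcases hMs.eq_bot_or_eq_top_of_normal ((C.map f).subgroupOf M) inferInstance with h | h
  · left
    rw [subgroupOf_eq_bot, disjoint_iff, inf_eq_left.2 hCM] at h
    have hCT : C ≤ T := by
      rw [← hker]
      exact (map_eq_bot_iff C).1 h
    set N := normalizer (Q : Set K) with hN
    -- N ⊓ L maps onto M
    have hNL : ((N ⊓ L).map f) = M := by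
      apply le_antisymm
      · exact map_le_iff_le_comap.2 inf_le_right
      · intro y hy
        obtain ⟨g, rfl⟩ := QuotientGroup.mk'_surjective T y
        have hg : g ∈ N ⊔ T := hfr ▸ mem_top g
        obtain ⟨a, ha, t, ht, rfl⟩ := mem_sup_of_normal_right.1 hg
        refine ⟨a, ⟨ha, ?_⟩, ?_⟩
        · have h2 : a * t ∈ L := hy
          have h3 := L.mul_mem h2 (L.inv_mem (hTL ht))
          rwa [mul_inv_cancel_right] at h3
        · have hft : f t = 1 := by
            rw [← MonoidHom.mem_ker, hker]; exact ht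
          change f a = f (a * t)
          rw [map_mul, hft, mul_one]
    let φ : (N ⊓ L : Subgroup K) →* MulAut Q := Q.normalizerMonoidHom.comp (inclusion inf_le_left)
    have hφ : φ.ker ≤ (T.subgroupOf (N ⊓ L)) := by
      intro x hx
      have h2 : (inclusion inf_le_left x : N) ∈ Q.normalizerMonoidHom.ker := hx
      rw [normalizerMonoidHom_ker] at h2
      exact hCT ⟨h2, x.2.2⟩
    have h3 : Nat.card M = (T.subgroupOf (N ⊓ L)).index := by
      have h5 : (f.domRestrict (N ⊓ L)).ker = T.subgroupOf (N ⊓ L) := by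
        rw [MonoidHom.ker_domRestrict, hker]
      rw [← h5, index_ker, MonoidHom.domRestrict_range, hNL]
    rw [h3]
    refine (index_dvd_of_le hφ).trans ?_
    rw [index_ker]
    exact card_subgroup_dvd_card _
  · right
    rw [subgroupOf_eq_top] at h
    have h1 : C.map f = M := le_antisymm hCM h
    have h2 : p ∣ Nat.card C := by
      rw [← h1] at hpM
      exact hpM.trans (card_map_dvd _ _)
    obtain ⟨c, hc⟩ := exists_prime_orderOf_dvd_card' p h2
    refine ⟨c, by rwa [Subgroup.orderOf_coe], ?_⟩
    intro x hx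
    rw [mem_centralizer_singleton_iff]
    exact (mem_centralizer_iff.1 c.2.1 x hx)

end

end Cfsg.Agent.H680.Over
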