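import Cfsg.Agent.H680.Over
import Cfsg.Agent.H939.KLat
import Cfsg.Agent.OrdDiv.Table

/-!
Overgroups of a (quasi)simple subgroup `X` of a finite group `G`, `p ∥ |G|`, `p ∣ |X|`; the criterion for S5900.

* `exists_core` : the structure of a proper overgroup `K` of `X`;
* `over_simple` : if the numbers are right, `K` normalises `X`;
* `cl_of_simple` : `CL G` from a simple subgroup `X` (all hypotheses numerical, `decide`-checkable);
* `only_of` : the order condition on simple groups, from S0000 and the order engine.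
-/

set_option autoImplicit false

namespace Cfsg.Agent.H680.Over

open Subgroup Cfsg Cfsg.Agent.Lib.Cores Cfsg.Agent.H939 Cfsg.Agent.H939.KLat

universe u

/-- every nonabelian finite simple group whose order is divisible by `n` and divides `N` has order `n` or `N` -/
def Only (n N : ℕ) : Prop :=
  ∀ (S : Type) [Group S] [Finite S] [IsSimpleGroup S], (¬ ∀ a b : S, a * b = b * a) → n ∣ Nat.card S →
    Nat.card S ∣ N → Nat.card S = n ∨ Nat.card S = N

/-- the classification (in `Type`) -/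
def Kn : Prop := ∀ (S : Type) [Group S] [Finite S] [IsSimpleGroup S], IsKnownSimple' S

/-- check by the order engine -/
theorem only_of (h0 : Kn) {n N : ℕ} (l : List (ℕ × ℕ)) (hv : OrdDiv.valid l N = true)
    (hc : (OrdDiv.cands l N).all (fun g => OrdDiv.ordN g % n != 0 || (OrdDiv.ordN g == n || OrdDiv.ordN g == N)) = true) :
    Only n N := by
  intro S _ _ _ hna hn hN
  obtain ⟨g, h1, h2, h3⟩ := OrdDiv.exists_good OrdDiv.table (h0 S) hna hv hN
  have h4 := List.all_eq_true.1 hc g h1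
  rw [← h3] at h4
  simp only [Bool.or_eq_true, bne_iff_ne, beq_iff_eq, ne_eq] at h4
  rcases h4 with h4 | h4 | h4
  · exact absurd (Nat.mod_eq_zero_of_dvd hn) h4
  · exact Or.inl h4
  · exact Or.inr h4

section

variable {G : Type} [Group G] [Finite G] {p n : ℕ}

/-- the standing hypotheses on `X` : `p ∥ |G|`, and every normal subgroup of `X` is `X` or a `p'`-group of index
divisible by `n` -/
structure Hyp (p n : ℕ) (X : Subgroup G) : Prop where
  hp : p.Prime
  hp2 : ¬ p ^ 2 ∣ Nat.card G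
  hpX : p ∣ Nat.card X
  hX1 : ∀ A : Subgroup X, A.Normal → p ∣ Nat.card A → A = ⊤
  hX2 : ∀ A : Subgroup X, A.Normal → ¬ p ∣ Nat.card A → n ∣ A.index
  hn : ¬ n ∣ p
  only : Only n (Nat.card G)

omit [Finite G] in
theorem Hyp.of_simple {X : Subgroup G} (hp : p.Prime) (hp2 : ¬ p ^ 2 ∣ Nat.card G) (hpX : p ∣ Nat.card X)
    (hs : IsSimpleGroup X) (hX : Nat.card X = n) (hn : n ≠ p) (hS : Only n (Nat.card G)) : Hyp p n X where
  hp := hp
  hp2 := hp2
  hpX := hpX
  hX1 := by
    intro A hA hpA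
    rcases hs.eq_bot_or_eq_top_of_normal A hA with h | h
    · rw [h, card_bot] at hpA
      exact absurd (Nat.dvd_one.1 hpA) hp.one_lt.ne'
    · exact h
  hX2 := by
    intro A hA hpA
    rcases hs.eq_bot_or_eq_top_of_normal A hA with h | h
    · rw [h, index_bot, hX]
    · rw [h, card_top] at hpA
      exact absurd hpX hpA
  hn := by
    intro h
    rcases (Nat.dvd_prime hp).1 h with h1 | h1
    · rw [hX, h1] at hpX
      exact hp.one_lt.ne' (Nat.dvd_one.1 hpX)
    · exact hn h1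
  only := hS

/-- the structure of a proper overgroup -/
theorem exists_core {X : Subgroup G} (h : Hyp p n X) {K : Subgroup G} (hXK : X ≤ K) (hK : K ≠ ⊤) :
    ∃ T : Subgroup G, T ≤ K ∧ (∀ k ∈ K, ∀ t ∈ T, k * t * k⁻¹ ∈ T) ∧ (Nat.card T).Coprime p ∧
      (∀ k ∈ K, ∀ t ∈ X ⊔ T, k * t * k⁻¹ ∈ X ⊔ T) ∧ n * Nat.card T ∣ Nat.card G ∧
      Nat.card (X ⊔ T : Subgroup G) = n * Nat.card T ∧
      ∀ r : ℕ, r.Prime → r ∣ Nat.card T → ∃ (Q : Subgroup G) (k : ℕ), Q ≤ T ∧ k ≠ 0 ∧ Nat.card Q = r ^ k ∧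
        ¬ r ^ (k + 1) ∣ Nat.card T ∧
        (n ∣ Nat.card (MulAut Q) ∨ ∃ c : G, orderOf c = p ∧ c ∈ K ∧ Q ≤ centralizer {c}) := by
  have hKG : Nat.card K ∣ Nat.card G := card_subgroup_dvd_card K
  have hKlt : Nat.card K < Nat.card G := by
    refine lt_of_le_of_ne (Nat.le_of_dvd Nat.card_pos hKG) fun he => hK ?_
    exact eq_top_of_card_eq K he
  set Y := X.subgroupOf K with hY
  have hYX : Y.map K.subtype = X := by rw [hY, subgroupOf_map_subtype, inf_eq_left.2 hXK]
  let e : Y ≃* X := subgroupOfEquivOfLe hXK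
  have hcY : Nat.card Y = Nat.card X := Nat.card_congr e.toEquiv
  have hp2K : ¬ p ^ 2 ∣ Nat.card K := fun hd => h.hp2 (hd.trans hKG)
  have hcA : ∀ A : Subgroup Y, Nat.card (A.map e.toMonoidHom) = Nat.card A := fun A =>
    card_map_of_injective e.injective
  have hY1 : ∀ A : Subgroup Y, A.Normal → p ∣ Nat.card A → A = ⊤ := by
    intro A hA hpA
    have h1 := h.hX1 (A.map e.toMonoidHom) (hA.map _ e.surjective) (by rwa [hcA])
    have h2 := congrArg (comap e.toMonoidHom) h1
    rwa [comap_map_eq_self_of_injective e.injective, comap_top] at h2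
  have hY2 : ∀ A : Subgroup Y, A.Normal → ¬ p ∣ Nat.card A → n ∣ A.index := by
    intro A hA hpA
    have h1 := h.hX2 (A.map e.toMonoidHom) (hA.map _ e.surjective) (by rwa [hcA])
    have h2 : (A.map e.toMonoidHom).index = A.index := by
      have := index_map_equiv A e
      exact this
    rwa [h2] at h1
  obtain ⟨h1, h2, h3⟩ := core_over h.hp hp2K Y (hcY ▸ h.hpX) hY1 hY2 h.hn (by
    intro S _ _ _ hna hd1 hd2
    rcases h.only S hna hd1 (hd2.trans hKG) with h4 | h4
    · exact h4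
    · exact absurd (Nat.le_of_dvd Nat.card_pos hd2) (by rw [h4]; exact not_le.2 hKlt))
  set T := pPrimeCore p K with hT
  have hpM : p ∣ Nat.card (E p (K ⧸ T)) := by
    rw [h1]
    have hd : Nat.card Y = Nat.card (Y.map (QuotientGroup.mk' T)) * Nat.card (T.subgroupOf Y) := by
      have h5 : ((QuotientGroup.mk' T).domRestrict Y).ker = T.subgroupOf Y := by
        rw [MonoidHom.ker_domRestrict, QuotientGroup.ker_mk']
      rw [← h5, ← MonoidHom.domRestrict_range, ← index_ker, mul_comm, card_mul_index]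
    have hcop : (Nat.card (T.subgroupOf Y)).Coprime p := by
      refine Nat.Coprime.coprime_dvd_left ?_ (pPrimeCore_coprime (G := K) p)
      rw [← card_map_of_injective Y.subtype_injective, subgroupOf_map_subtype]
      exact card_dvd_of_le inf_le_left
    have hpY : p ∣ Nat.card Y := hcY ▸ h.hpX
    rw [hd] at hpY
    exact hcop.symm.dvd_of_dvd_mul_right hpY
  -- the preimage of M
  have hYT : Y ⊔ T = (E p (K ⧸ T)).comap (QuotientGroup.mk' T) := by
    rw [h1, comap_map_eq, QuotientGroup.ker_mk']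
  have hYTn : (Y ⊔ T).Normal := by
    rw [hYT]
    exact (E_normal (K := K ⧸ T) (p := p)).comap _
  have hcYT : Nat.card (Y ⊔ T : Subgroup K) = n * Nat.card T := by
    rw [hYT, ← h2, mul_comm]
    exact QuotientGroup.card_preimage_mk T (E p (K ⧸ T) : Set (K ⧸ T))
  have hTm : (Y ⊔ T).map K.subtype = X ⊔ T.map K.subtype := by
    rw [Subgroup.map_sup, hYX]
  have hcT : Nat.card (T.map K.subtype) = Nat.card T := card_map_of_injective K.subtype_injective
  have hcXT : Nat.card (X ⊔ T.map K.subtype : Subgroup G) = n * Nat.card T := by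
    rw [← hTm, card_map_of_injective K.subtype_injective, hcYT]
  refine ⟨T.map K.subtype, map_subtype_le _, ?_, ?_, ?_, ?_, ?_, ?_⟩
  · rintro k hk _ ⟨t, ht, rfl⟩
    exact ⟨⟨k, hk⟩ * t * ⟨k, hk⟩⁻¹, (pPrimeCore_normal (G := K) p).conj_mem t ht _, rfl⟩
  · rw [hcT]
    exact pPrimeCore_coprime p
  · rw [← hTm]
    rintro k hk _ ⟨t, ht, rfl⟩
    exact ⟨⟨k, hk⟩ * t * ⟨k, hk⟩⁻¹, hYTn.conj_mem t ht _, rfl⟩
  · rw [hcT, ← hcXT]
    exact card_subgroup_dvd_card _
  · rw [hcT, hcXT]
  · intro r hr hrT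
    rw [hcT] at hrT ⊢
    have hrF : Fact r.Prime := ⟨hr⟩
    obtain ⟨R⟩ : Nonempty (Sylow r T) := inferInstance
    refine ⟨((R : Subgroup T).map T.subtype).map K.subtype, (Nat.card T).factorization r, map_mono (map_subtype_le _),
      ?_, ?_, ?_, ?_⟩
    · exact (hr.factorization_pos_of_dvd Nat.card_pos.ne' hrT).ne'
    · rw [card_map_of_injective K.subtype_injective, card_map_of_injective T.subtype_injective,
        R.card_eq_multiplicity]
    · exact Nat.pow_succ_factorization_not_dvd Nat.card_pos.ne' hr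
    · rcases frattini_over h.hp T (E p (K ⧸ T)) inferInstance h3 hpM hr R rfl with h4 | ⟨c, hc1, hc2⟩
      · left
        rw [h2] at h4
        let e' : ((R : Subgroup T).map T.subtype) ≃* (((R : Subgroup T).map T.subtype).map K.subtype) :=
          equivMapOfInjective _ _ K.subtype_injective
        rwa [Nat.card_congr (MulAut.congr e').toEquiv] at h4
      · right
        refine ⟨(c : G), by rwa [Subgroup.orderOf_coe], c.2, ?_⟩
        rintro _ ⟨x, hx, rfl⟩
        have h5 := mem_centralizer_singleton_iff.1 (hc2 hx)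
        rw [mem_centralizer_singleton_iff]
        exact congrArg Subtype.val h5

/-! ### The numerical part -/

/-- trial division -/
def isP (r : ℕ) : Bool := decide (2 ≤ r) && (List.range r).all fun d => decide (d < 2) || r % d != 0

theorem prime_of_isP {r : ℕ} (h : isP r = true) : r.Prime := by
  simp only [isP, Bool.and_eq_true, decide_eq_true_eq, List.all_eq_true, List.mem_range, Bool.or_eq_true,
    bne_iff_ne, ne_eq] at h
  rw [Nat.prime_def]
  refine ⟨h.1, fun m hm => ?_⟩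
  by_cases hmr : m = r
  · exact Or.inr hmr
  left
  have hr0 : 0 < r := by omega
  have hlt : m < r := lt_of_le_of_ne (Nat.le_of_dvd hr0 hm) hmr
  rcases h.2 m hlt with h1 | h1
  · have : m ≠ 0 := by
      rintro rfl
      exact hr0.ne' (Nat.eq_zero_of_zero_dvd hm)
    omega
  · exact absurd (Nat.mod_eq_zero_of_dvd hm) h1

/-- the order of `GL_d(r)` -/
def gl (r d : ℕ) : ℕ := ((List.range d).map fun i => r ^ d - r ^ i).prod

theorem gl_eq (r d : ℕ) : gl r d = ∏ i : Fin d, (r ^ d - r ^ (i : ℕ)) := by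
  rw [gl, ← List.prod_ofFn (f := fun i : Fin d => r ^ d - r ^ (i : ℕ))]
  congr 1
  apply List.ext_getElem
  · simp
  · intro i h1 h2
    simp

/-- check for a prime `r` with exponent `k` in the cofactor and witness `w` (a divisor of `n`) -/
def chk1 (p n q : ℕ) (t : ℕ × ℕ × ℕ) : Bool :=
  isP t.1 && (n % t.2.2 == 0) && (Nat.gcd t.2.2 t.1 == 1) &&
    ((List.range (t.2.1 + 1)).all fun d => gl t.1 d % t.2.2 != 0) && (t.1 == p || q % t.1 != 0)

/-- the numerical check: `l` = list of `(r, k, w)`, `N = n * ∏ r ^ k` -/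
def chk (p n N q : ℕ) (l : List (ℕ × ℕ × ℕ)) : Bool :=
  l.all (chk1 p n q) && (N == n * (l.map fun t => t.1 ^ t.2.1).prod) && decide (l.map fun t => t.1).Nodup

theorem mem_of_pow_dvd {l : List (ℕ × ℕ × ℕ)} (h1 : ∀ t ∈ l, t.1.Prime) (h2 : (l.map fun t => t.1).Nodup)
    {r k : ℕ} (hr : r.Prime) (hk : k ≠ 0) (h : r ^ k ∣ (l.map fun t => t.1 ^ t.2.1).prod) :
    ∃ t ∈ l, t.1 = r ∧ k ≤ t.2.1 := by
  induction l with
  | nil =>
    rw [List.map_nil, List.prod_nil, Nat.dvd_one] at h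
    exact absurd (Nat.pow_eq_one.1 h) (by rintro (h | h); exacts [hr.one_lt.ne' h, hk h])
  | cons t l ih =>
    rw [List.map_cons, List.nodup_cons] at h2
    rw [List.map_cons, List.prod_cons] at h
    by_cases htr : t.1 = r
    · refine ⟨t, by simp, htr, ?_⟩
      have hcop : Nat.Coprime (r ^ k) (l.map fun t => t.1 ^ t.2.1).prod := by
        apply Nat.Coprime.pow_left
        rw [Nat.coprime_list_prod_right_iff]
        intro m hm
        obtain ⟨s, hs, rfl⟩ := List.mem_map.1 hm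
        apply Nat.Coprime.pow_right
        rw [Nat.coprime_primes hr (h1 s (by simp [hs]))]
        rintro rfl
        exact h2.1 (List.mem_map.2 ⟨s, hs, htr.symm⟩)
      have h3 := hcop.dvd_of_dvd_mul_right h
      rw [htr] at h3
      exact (Nat.pow_dvd_pow_iff_le_right hr.one_lt).1 h3
    · have hcop : Nat.Coprime (r ^ k) (t.1 ^ t.2.1) :=
        ((Nat.coprime_primes hr (h1 t (by simp))).2 (Ne.symm htr)).pow _ _
      have h3 := hcop.dvd_of_dvd_mul_left h
      obtain ⟨s, hs, h4⟩ := ih (fun s hs => h1 s (by simp [hs])) h2.2 h3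
      exact ⟨s, by simp [hs], h4⟩

theorem num_of_chk {p n N q : ℕ} {l : List (ℕ × ℕ × ℕ)} (h : chk p n N q l = true) (hN : N ≠ 0) {r k : ℕ}
    (hr : r.Prime) (hrp : r ≠ p) (hk : k ≠ 0) (hd : n * r ^ k ∣ N) :
    (∀ a d : ℕ, d ≤ k → ¬ n ∣ r ^ a * ∏ i : Fin d, (r ^ d - r ^ (i : ℕ))) ∧ ¬ r ∣ q := by
  simp only [chk, Bool.and_eq_true, List.all_eq_true, beq_iff_eq, decide_eq_true_eq] at h
  obtain ⟨⟨h1, h2⟩, h3⟩ := h
  have hn : 0 < n := by
    rcases Nat.eq_zero_or_pos n with h0 | h0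
    · rw [h0, zero_mul] at h2; exact absurd h2 hN
    · exact h0
  rw [h2] at hd
  have hd2 := Nat.dvd_of_mul_dvd_mul_left hn hd
  have h1' : ∀ t ∈ l, t.1.Prime ∧ t.2.2 ∣ n ∧ Nat.Coprime t.2.2 t.1 ∧
      (∀ d ≤ t.2.1, ¬ t.2.2 ∣ ∏ i : Fin d, (t.1 ^ d - t.1 ^ (i : ℕ))) ∧ (t.1 = p ∨ ¬ t.1 ∣ q) := by
    intro t ht
    have h4 := h1 t ht
    simp only [chk1, Bool.and_eq_true, beq_iff_eq, List.all_eq_true, List.mem_range, bne_iff_ne, ne_eq,
      Bool.or_eq_true] at h4
    obtain ⟨⟨⟨⟨a1, a2⟩, a3⟩, a4⟩, a5⟩ := h4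
    refine ⟨prime_of_isP a1, Nat.dvd_of_mod_eq_zero a2, a3, ?_, ?_⟩
    · intro d hd
      rw [← gl_eq]
      exact fun hc => a4 d (by omega) (Nat.mod_eq_zero_of_dvd hc)
    · rcases a5 with a5 | a5
      · exact Or.inl a5
      · exact Or.inr fun hc => a5 (Nat.mod_eq_zero_of_dvd hc)
  obtain ⟨t, ht, htr, hkt⟩ := mem_of_pow_dvd (fun t ht => (h1' t ht).1) h3 hr hk hd2
  obtain ⟨-, b2, b3, b4, b5⟩ := h1' t ht
  rw [htr] at b3 b4 b5
  refine ⟨fun a d hdk hc => ?_, ?_⟩
  · refine b4 d (hdk.trans hkt) ?_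
    exact (b3.pow_right a).dvd_of_dvd_mul_left (b2.trans hc)
  · rcases b5 with b5 | b5
    · exact absurd b5 hrp
    · exact b5

/-- `K` normalises `X` -/
theorem over_simple {X : Subgroup G} (h : Hyp p n X) {N q : ℕ} {l : List (ℕ × ℕ × ℕ)} (hG : Nat.card G = N)
    (hC : ∀ c : G, orderOf c = p → Nat.card (centralizer {c} : Subgroup G) = q) (hchk : chk p n N q l = true)
    {K : Subgroup G} (hXK : X ≤ K) (hK : K ≠ ⊤) : K ≤ normalizer (X : Set G) := by
  obtain ⟨T, hTK, hTn, hTp, hXT, hnT, hcXT, hall⟩ := exists_core h hXK hK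
  have hT : T = ⊥ := by
    by_contra hne
    have h1 : Nat.card T ≠ 1 := fun h1 => hne (card_eq_one.1 h1)
    obtain ⟨r, hr, hrT⟩ := Nat.exists_prime_and_dvd h1
    obtain ⟨Q, k, hQT, hk, hQ, -, halt⟩ := hall r hr hrT
    have hrp : r ≠ p := by
      rintro rfl
      exact (Nat.Prime.coprime_iff_not_dvd hr).1 hTp.symm hrT
    have hrF : Fact r.Prime := ⟨hr⟩
    have hd : n * r ^ k ∣ N := by
      rw [← hG, ← hQ]
      exact (Nat.mul_dvd_mul_left n (card_dvd_of_le hQT)).trans hnT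
    obtain ⟨c1, c2⟩ := num_of_chk hchk (hG ▸ Nat.card_pos.ne') hr hrp hk hd
    rcases halt with h2 | ⟨c, hc, -, hQc⟩
    · obtain ⟨d, M, hdk, -, hM⟩ := BpSpor.card_mulAut_dvd (IsPGroup.of_card hQ) hQ
      exact c1 M d hdk (h2.trans hM)
    · have h3 := card_dvd_of_le hQc
      rw [hC c hc, hQ] at h3
      exact c2 ((dvd_pow_self r hk).trans h3)
  subst hT
  rw [sup_bot_eq] at hXT
  intro k hk
  rw [mem_normalizer_iff]
  intro x
  constructor
  · exact fun hx => hXT k hk x hx
  · intro hx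
    have := hXT k⁻¹ (inv_mem hk) _ hx
    simpa [mul_assoc] using this

/-- **The criterion for S5900** : `X` simple of order `n`, `p ∥ |G| = N`, `|C_G(c)| = q` for `c` of order `p`,
the check `chk` and the order condition `Only`. -/
theorem cl_of_simple [IsSimpleGroup G] (hb : Below (Nat.card G)) {X : Subgroup G} (hs : IsSimpleGroup X)
    {N q : ℕ} (l : List (ℕ × ℕ × ℕ)) (hG : Nat.card G = N) (hX : Nat.card X = n) (hlt : n < N) (hp : p.Prime)
    (hpn : p ∣ n) (hp2 : ¬ p ^ 2 ∣ N) (hn : n ≠ p) (hS : Only n N)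
    (hC : ∀ c : G, orderOf c = p → Nat.card (centralizer {c} : Subgroup G) = q)
    (hchk : chk p n N q l = true) : CL G := by
  have h : Hyp p n X := Hyp.of_simple hp (hG ▸ hp2) (hX ▸ hpn) hs hX hn (hG ▸ hS)
  have hXcl : CL X := hb.apply (by rw [hX, hG]; exact hlt)
  have hXb : X ≠ ⊥ := by
    rintro rfl
    rw [card_bot] at hX
    rw [← hX] at hpn
    exact hp.one_lt.ne' (Nat.dvd_one.1 hpn)
  have hXt : X ≠ ⊤ := by
    rintro rfl
    rw [card_top, hG] at hX
    exact hlt.ne' hX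
  refine crit_unique (M := normalizer (X : Set G)) hXcl ?_ fun Y hXY hY => over_simple h hG hC hchk hXY hY
  intro he
  have hXn : X.Normal := normalizer_eq_top_iff.1 he
  rcases hXn.eq_bot_or_eq_top with h1 | h1
  · exact hXb h1
  · exact hXt h1

end

end Cfsg.Agent.H680.Over
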