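import Cfsg.Agent.H730.PairRow
import Cfsg.Agent.H710.Spor.He

/-!
# S4938, pairs of primes: the Held group (task 1904; helper680)
-/

set_option autoImplicit false

namespace Cfsg.Agent.H680.PairHe

open Cfsg Cfsg.Agent.H713 Cfsg.Agent.H730.Pair Cfsg.Agent.H710.Spor Cfsg.Agent.H710.Spor.HeCent Subgroup

/-- **One element.** A `VZ` element `x` such that no full Sylow order divides `#C(x)`. -/
theorem pairRow_of_one {G : Type*} [Group G] [Finite G] (x : G) (hx : VZ G x)
    (h : ∀ p : ℕ, p.Prime → p ∣ Nat.card G → ∃ k : ℕ, p ^ k ∣ Nat.card G ∧ ¬ p ^ k ∣ Nat.card (centralizer ({x} : Set G))) :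
    PairRow G := by
  intro p q hp hq _ hpG hqG
  obtain ⟨k, h1, h2⟩ := h p hp hpG
  obtain ⟨l, h3, h4⟩ := h q hq hqG
  exact ⟨x, hx, dvd_index_of_not_dvd hp h1 h2, dvd_index_of_not_dvd hq h3 h4⟩

theorem pairRow' : PairRow Cfsg.Spor.He := by
  have hcard : Nat.card Cfsg.Spor.He = 4030387200 := Cfsg.Agent.KFacts.He.Classes.card_he
  have h12 : 12 ∣ Nat.card (centralizer ({x12} : Set Cfsg.Spor.He)) := by
    rw [← He.o12]
    exact Subgroup.orderOf_dvd_natCard _ (mem_centralizer_singleton_iff.2 rfl)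
  have hc : Nat.card (centralizer ({x12} : Set Cfsg.Spor.He)) = 12 :=
    le_antisymm card_cent12 (Nat.le_of_dvd Nat.card_pos h12)
  refine pairRow_of_one x12 He.vz12 fun p hp hpG => ?_
  rw [hc, hcard] at *
  have hmem : p ∈ Nat.primeFactors 4030387200 := Nat.mem_primeFactors.2 ⟨hp, hpG, by norm_num⟩
  have hf : Nat.primeFactors 4030387200 = {2, 3, 5, 7, 17} := by
    rw [show (4030387200 : ℕ) = 2 ^ 10 * 3 ^ 3 * 5 ^ 2 * 7 ^ 3 * 17 by norm_num]
    rw [Nat.primeFactors_mul (by norm_num) (by norm_num), Nat.primeFactors_mul (by norm_num) (by norm_num),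
      Nat.primeFactors_mul (by norm_num) (by norm_num), Nat.primeFactors_mul (by norm_num) (by norm_num),
      Nat.primeFactors_pow _ (by norm_num), Nat.primeFactors_pow _ (by norm_num), Nat.primeFactors_pow _ (by norm_num),
      Nat.primeFactors_pow _ (by norm_num), Nat.Prime.primeFactors (by norm_num), Nat.Prime.primeFactors (by norm_num),
      Nat.Prime.primeFactors (by norm_num), Nat.Prime.primeFactors (by norm_num), Nat.Prime.primeFactors (by norm_num)]
    decide
  rw [hf] at hmem
  simp only [Finset.mem_insert, Finset.mem_singleton] at hmem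
  rcases hmem with rfl | rfl | rfl | rfl | rfl
  · exact ⟨3, by norm_num, by norm_num⟩
  · exact ⟨2, by norm_num, by norm_num⟩
  · exact ⟨1, by norm_num, by norm_num⟩
  · exact ⟨1, by norm_num, by norm_num⟩
  · exact ⟨1, by norm_num, by norm_num⟩

/-- **The Held group** (task 1904) -/
theorem pairRow {K : Type*} [Group K] (h : Spor.IsoHe K) : PairRow K := by
  obtain ⟨e⟩ := h
  exact pairRow'.mulEquiv e.symm

end Cfsg.Agent.H680.PairHe
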