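import Cfsg.Agent.H412.Tc.HeisDefs

/-!
# S3621, lemma SelB: the minimal normal subgroup of Heisenberg type
-/

set_option autoImplicit false

namespace Cfsg.Agent.H680.TcSelB

open Cfsg.Agent.H412.Tc
open scoped commutatorElement

universe u

section

variable {K V : Type*} [Field K] [AddCommGroup V] [Module K V]

theorem semi_inv {g : GV V} {σ : K ≃+* K} (h : ∀ (c : K) (v : V), g • c • v = σ c • g • v) (c : K) (v : V) :
    g⁻¹ • c • v = σ.symm c • g⁻¹ • v := by
  rw [inv_smul_eq_iff, h, σ.apply_symm_apply, smul_inv_smul]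

theorem conj_scal {g : GV V} {σ : K ≃+* K} (h : ∀ (c : K) (v : V), g • c • v = σ c • g • v) (c : Kˣ) :
    g * scal K V c * g⁻¹ = scal K V (Units.map (σ : K →* K) c) := GV_ext fun v => by
  rw [mul_smul, mul_smul, scal_smul, scal_smul, h, smul_inv_smul]
  rfl

theorem conj_lin {g : GV V} {σ : K ≃+* K} (h : ∀ (c : K) (v : V), g • c • v = σ c • g • v) {b : GV V}
    (hb : Lin K b) : Lin K (g * b * g⁻¹) := fun c v => by
  rw [mul_smul, mul_smul, semi_inv h, hb, h, σ.apply_symm_apply, mul_smul, mul_smul]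

/-- the linear elements of `A` -/
def linSub (K : Type*) {V : Type*} [Field K] [AddCommGroup V] [Module K V] (A : Subgroup (GV V)) :
    Subgroup (GV V) where
  carrier := {g | g ∈ A ∧ Lin K g}
  one_mem' := ⟨one_mem _, Lin.one⟩
  mul_mem' ha hb := ⟨mul_mem ha.1 hb.1, ha.2.mul hb.2⟩
  inv_mem' ha := ⟨inv_mem ha.1, ha.2.inv⟩

/-- scalars times `D` -/
def scalMul (K : Type*) {V : Type*} [Field K] [AddCommGroup V] [Module K V] (D : Subgroup (GV V))
    (hD : ∀ d ∈ D, Lin K d) : Subgroup (GV V) where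
  carrier := {g | ∃ c : Kˣ, ∃ d ∈ D, g = scal K V c * d}
  one_mem' := ⟨1, 1, one_mem _, by rw [map_one, one_mul]⟩
  mul_mem' := by
    rintro _ _ ⟨c, d, hd, rfl⟩ ⟨c', d', hd', rfl⟩
    refine ⟨c * c', d * d', mul_mem hd hd', ?_⟩
    rw [map_mul, mul_assoc, ← mul_assoc d, (hD d hd).scal_comm]
    simp only [mul_assoc]
  inv_mem' := by
    rintro _ ⟨c, d, hd, rfl⟩
    refine ⟨c⁻¹, d⁻¹, inv_mem hd, ?_⟩
    rw [mul_inv_rev, map_inv, ← map_inv, (hD d hd).inv.scal_comm]

/-- elements with scalar `r`-th power -/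
def powSub {B : Subgroup (GV V)} (hlin : ∀ b ∈ B, Lin K b)
    (hcc : ∀ a ∈ B, ∀ b ∈ B, ∃ c : Kˣ, CC c a b) (r : ℕ) : Subgroup (GV V) where
  carrier := {g | g ∈ B ∧ ∃ c : Kˣ, g ^ r = scal K V c}
  one_mem' := ⟨one_mem _, 1, by rw [one_pow, map_one]⟩
  mul_mem' := by
    rintro a b ⟨ha, c, hc⟩ ⟨hb, d, hd⟩
    obtain ⟨e, he⟩ := hcc b hb a ha
    refine ⟨mul_mem ha hb, e ^ (r * (r - 1) / 2) * (c * d), ?_⟩
    rw [he.mul_pow (hlin a ha) (hlin b hb), hc, hd, map_mul, map_mul]
  inv_mem' := by
    rintro a ⟨ha, c, hc⟩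
    exact ⟨inv_mem ha, c⁻¹, by rw [inv_pow, hc, map_inv]⟩

end

theorem main {K V : Type u} [Field K] [Finite K] [AddCommGroup V] [Finite V] [Module K V] {A : Subgroup (GV V)}
    (S : SetA K V A) (hns : ∃ g ∈ A, Lin K g ∧ ∀ c : Kˣ, g ≠ scal K V c) :
    ∃ (B : Subgroup (GV V)) (r : ℕ), SetB K V A B r := by
  classical
  have hfinE : Finite (AddMonoid.End V) := Finite.of_injective (fun f : AddMonoid.End V => (f : V → V))
    DFunLike.coe_injective
  have hfin : Finite (GV V) := inferInstance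
  have hfinS : Finite (Subgroup (GV V)) := inferInstance
  have hnt : Nontrivial V := Finite.one_lt_card_iff_nontrivial.1 (by have := S.card; omega)
  -- the family
  let P : Subgroup (GV V) → Prop := fun N => (∀ c : Kˣ, scal K V c ∈ N) ∧ N ≤ linSub K A ∧
    (∀ g ∈ A, ∀ b ∈ N, g * b * g⁻¹ ∈ N) ∧ ∃ b ∈ N, ∀ c : Kˣ, b ≠ scal K V c
  have hP : P (linSub K A) := by
    refine ⟨fun c => ⟨S.scal_mem c, lin_scal c⟩, le_rfl, fun g hg b hb => ?_, ?_⟩
    · obtain ⟨σ, hσ⟩ := S.semi g hg
      exact ⟨mul_mem (mul_mem hg hb.1) (inv_mem hg), conj_lin hσ hb.2⟩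
    · obtain ⟨g, hg, hl, hc⟩ := hns
      exact ⟨g, ⟨hg, hl⟩, hc⟩
  obtain ⟨B, hB, hmin⟩ : ∃ B, P B ∧ ∀ N, P N → N ≤ B → B ≤ N := by
    obtain ⟨B, hB⟩ := (Set.toFinite {N | P N}).exists_minimal ⟨_, hP⟩
    exact ⟨B, hB.1, fun N hN hle => hB.2 hN hle⟩
  obtain ⟨hBs, hBl, hBn, hBns⟩ := hB
  have hlin : ∀ b ∈ B, Lin K b := fun b hb => (hBl hb).2
  have hBA : B ≤ A := fun b hb => (hBl hb).1
  have hmin' : ∀ N : Subgroup (GV V), (∀ c : Kˣ, scal K V c ∈ N) → N ≤ B →
      (∀ g ∈ A, ∀ b ∈ N, g * b * g⁻¹ ∈ N) → (∀ b ∈ N, ∃ c : Kˣ, b = scal K V c) ∨ B ≤ N := by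
    intro N h1 h2 h3
    by_cases h4 : ∀ b ∈ N, ∃ c : Kˣ, b = scal K V c
    · exact Or.inl h4
    · push Not at h4
      exact Or.inr (hmin N ⟨h1, h2.trans hBl, h3, h4⟩ h2)
  -- commutators are scalar
  have hD : ∀ d ∈ ⁅B, B⁆, Lin K d := fun d hd => hlin d (Subgroup.commutator_le_self B hd)
  have hDn : ∀ g ∈ A, ∀ d ∈ ⁅B, B⁆, g * d * g⁻¹ ∈ ⁅B, B⁆ := by
    intro g hg d hd
    have h1 : B.map (MulAut.conj g).toMonoidHom ≤ B := by
      rintro _ ⟨b, hb, rfl⟩
      exact hBn g hg b hb
    have h2 : (MulAut.conj g).toMonoidHom d ∈ ⁅B, B⁆.map (MulAut.conj g).toMonoidHom := ⟨d, hd, rfl⟩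
    rw [Subgroup.map_commutator] at h2
    exact Subgroup.commutator_mono h1 h1 h2
  have hcc : ∀ a ∈ B, ∀ b ∈ B, ∃ c : Kˣ, CC c a b := by
    have hsc : ∀ d ∈ ⁅B, B⁆, ∃ c : Kˣ, d = scal K V c := by
      rcases hmin' (scalMul K ⁅B, B⁆ hD) (fun c => ⟨c, 1, one_mem _, by rw [mul_one]⟩)
        (by
          rintro _ ⟨c, d, hd, rfl⟩
          exact mul_mem (hBs c) (Subgroup.commutator_le_self B hd))
        (by
          rintro g hg _ ⟨c, d, hd, rfl⟩
          obtain ⟨σ, hσ⟩ := S.semi g hg
          refine ⟨Units.map (σ : K →* K) c, g * d * g⁻¹, hDn g hg d hd, ?_⟩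
          rw [← conj_scal hσ]
          group) with h | h
      · intro d hd
        exact h d ⟨1, d, hd, by rw [map_one, one_mul]⟩
      · -- `⁅B, B⁆` is perfect
        exfalso
        have hperf : ⁅B, B⁆ ≤ ⁅⁅B, B⁆, ⁅B, B⁆⁆ := by
          rw [Subgroup.commutator_le]
          intro a ha b hb
          obtain ⟨c, d, hd, rfl⟩ := h ha
          obtain ⟨c', d', hd', rfl⟩ := h hb
          have e : ⁅scal K V c * d, scal K V c' * d'⁆ = ⁅d, d'⁆ := by
            have h1 : Commute d (scal K V c') := (hD d hd).scal_commute c'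
            have h2 : Commute d' (scal K V c) := (hD d' hd').scal_commute c
            have h3 : Commute (scal K V c) (scal K V c') := (lin_scal c).scal_commute c'
            have h4 : Commute d (scal K V c) := (hD d hd).scal_commute c
            have h5 : Commute d' (scal K V c') := (hD d' hd').scal_commute c'
            have h6 : (scal K V c * d) * (scal K V c' * d') = (scal K V c * scal K V c') * (d * d') := by
              rw [mul_assoc, ← mul_assoc d, h1.eq]
              simp only [mul_assoc]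
            have h7 : (scal K V c' * d') * (scal K V c * d) = (scal K V c * scal K V c') * (d' * d) := by
              rw [mul_assoc, ← mul_assoc d', h2.eq, h3.eq]
              simp only [mul_assoc]
            have h8 : ⁅scal K V c * d, scal K V c' * d'⁆ =
                (scal K V c * d) * (scal K V c' * d') * ((scal K V c' * d') * (scal K V c * d))⁻¹ := by
              rw [commutatorElement_def]; group
            have h9 : Commute (d * d') ((scal K V c * scal K V c')) :=
              (h4.mul_right h1).mul_left (h2.mul_right h5)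
            have h10 : Commute (d' * d) ((scal K V c * scal K V c')) :=
              (h2.mul_right h5).mul_left (h4.mul_right h1)
            have h11 : Commute (scal K V c * scal K V c') (d * d' * (d' * d)⁻¹) := (h9.mul_left h10.inv_left).symm
            have h12 : (scal K V c * scal K V c') * (d * d') * ((scal K V c * scal K V c') * (d' * d))⁻¹ =
                (scal K V c * scal K V c') * (d * d' * (d' * d)⁻¹) * (scal K V c * scal K V c')⁻¹ := by
              simp only [mul_inv_rev, mul_assoc]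
            rw [h8, h6, h7, h12, h11.eq, mul_inv_cancel_right, commutatorElement_def, mul_inv_rev]
            simp only [mul_assoc]
          rw [e]
          exact Subgroup.commutator_mem_commutator hd hd'
        have hsol : Group.IsSolvable ↥⁅B, B⁆ := by
          have hA := S.solv
          exact Group.isSolvable_of_isSolvable_injective (Subgroup.inclusion_injective
            ((Subgroup.commutator_le_self B).trans hBA))
        have hD0 : ⁅B, B⁆ = ⊥ := by
          by_contra hne
          have hnt2 : Nontrivial ↥⁅B, B⁆ := (Subgroup.nontrivial_iff_ne_bot _).2 hne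
          have h1 := Group.IsSolvable.commutator_lt_top_of_nontrivial ↥⁅B, B⁆
          apply h1.ne
          apply Subgroup.map_injective (Subgroup.subtype_injective ⁅B, B⁆)
          rw [Subgroup.map_subtype_commutator, ← MonoidHom.range_eq_map, Subgroup.range_subtype]
          exact le_antisymm (Subgroup.commutator_le_self _) hperf
        obtain ⟨b, hb, hc⟩ := hBns
        obtain ⟨c, d, hd, rfl⟩ := h hb
        rw [hD0, Subgroup.mem_bot] at hd
        exact hc c (by rw [hd, mul_one])
    intro a ha b hb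
    obtain ⟨c, hc⟩ := hsc _ (Subgroup.commutator_mem_commutator ha hb)
    refine ⟨c, ?_⟩
    unfold CC
    rw [← hc, commutatorElement_def]
    group
  -- the exponent
  obtain ⟨r, hr, hpow⟩ : ∃ r : ℕ, r.Prime ∧ ∀ b ∈ B, ∃ c : Kˣ, b ^ r = scal K V c := by
    obtain ⟨b, hb, hbc⟩ := hBns
    have hex : ∃ n, 0 < n ∧ ∃ c : Kˣ, b ^ n = scal K V c :=
      ⟨orderOf b, orderOf_pos b, 1, by rw [pow_orderOf_eq_one, map_one]⟩
    obtain ⟨hn0, hn1⟩ := Nat.find_spec hex
    have hn2 := fun m hm => Nat.find_min hex (m := m) hm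
    generalize Nat.find hex = n at hn0 hn1 hn2
    have hn3 : n ≠ 1 := by
      rintro rfl
      obtain ⟨c, hc⟩ := hn1
      exact hbc c (by rw [← hc, pow_one])
    obtain ⟨r, hr, k, hk⟩ := Nat.exists_prime_and_dvd hn3
    refine ⟨r, hr, ?_⟩
    rcases hmin' (powSub hlin hcc r)
      (fun c => ⟨hBs c, c ^ r, by rw [map_pow]⟩) (fun x hx => hx.1)
      (by
        rintro g hg x ⟨hx, c, hc⟩
        obtain ⟨σ, hσ⟩ := S.semi g hg
        exact ⟨hBn g hg x hx, Units.map (σ : K →* K) c, by rw [conj_pow, hc, conj_scal hσ]⟩) with h | h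
    · exfalso
      have hk0 : 0 < k := by
        rcases Nat.eq_zero_or_pos k with h0 | h0
        · rw [h0, mul_zero] at hk; omega
        · exact h0
      have hkn : k < n := by
        rw [hk]
        have := hr.one_lt
        nlinarith
      obtain ⟨c, hc⟩ := h (b ^ k) ⟨pow_mem hb k, by
        rw [← pow_mul, mul_comm k r, ← hk]
        exact hn1⟩
      exact hn2 k hkn ⟨hk0, c, hc⟩
    · exact fun x hx => (h hx).2
  -- the centre
  have hcent : ∀ a ∈ B, (∀ b ∈ B, a * b = b * a) → ∃ c : Kˣ, a = scal K V c := by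
    let Zs : Set (AddMonoid.End V) := {f | ∃ a ∈ B, (∀ b ∈ B, a * b = b * a) ∧ f = (a : AddMonoid.End V)}
    have hZc : ∀ x ∈ Zs, ∀ y ∈ Zs, x * y = y * x := by
      rintro _ ⟨a, ha, hac, rfl⟩ _ ⟨b, hb, hbc, rfl⟩
      rw [← Units.val_mul, ← Units.val_mul, hac b hb]
    have hRc : ∀ a ∈ Subring.closure Zs, ∀ b ∈ Subring.closure Zs, a * b = b * a := by
      intro a ha b hb
      have h := (Subring.isMulCommutative_closure hZc).is_comm.comm ⟨a, ha⟩ ⟨b, hb⟩
      exact congrArg Subtype.val h
    have hRn : ∀ g ∈ A, ∀ r ∈ Subring.closure Zs,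
        (g : AddMonoid.End V) * r * ((g⁻¹ : GV V) : AddMonoid.End V) ∈ Subring.closure Zs := by
      intro g hg x hx
      have hgi : ((g⁻¹ : GV V) : AddMonoid.End V) * (g : AddMonoid.End V) = 1 := by
        rw [← Units.val_mul, inv_mul_cancel, Units.val_one]
      have hgi' : (g : AddMonoid.End V) * ((g⁻¹ : GV V) : AddMonoid.End V) = 1 := by
        rw [← Units.val_mul, mul_inv_cancel, Units.val_one]
      induction hx using Subring.closure_induction with
      | mem x hx =>
        apply Subring.subset_closure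
        obtain ⟨a, ha, hac, rfl⟩ := hx
        refine ⟨g * a * g⁻¹, hBn g hg a ha, fun b hb => ?_, ?_⟩
        · have h1 := hac (g⁻¹ * b * g) (by
            have := hBn g⁻¹ (inv_mem hg) b hb
            rwa [inv_inv] at this)
          calc g * a * g⁻¹ * b = g * (a * (g⁻¹ * b * g)) * g⁻¹ := by group
            _ = g * ((g⁻¹ * b * g) * a) * g⁻¹ := by rw [h1]
            _ = b * (g * a * g⁻¹) := by group
        · rw [Units.val_mul, Units.val_mul]
      | zero => rw [mul_zero, zero_mul]; exact zero_mem _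
      | one => rw [mul_one, hgi']; exact one_mem _
      | add x y _ _ h1 h2 => rw [mul_add, add_mul]; exact add_mem h1 h2
      | neg x _ h1 => rw [mul_neg, neg_mul]; exact neg_mem h1
      | mul x y _ _ h1 h2 =>
        have e : (g : AddMonoid.End V) * (x * y) * ((g⁻¹ : GV V) : AddMonoid.End V) =
            ((g : AddMonoid.End V) * x * ((g⁻¹ : GV V) : AddMonoid.End V)) *
              ((g : AddMonoid.End V) * y * ((g⁻¹ : GV V) : AddMonoid.End V)) := by
          have : (g : AddMonoid.End V) * x * ((g⁻¹ : GV V) : AddMonoid.End V) *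
              ((g : AddMonoid.End V) * y * ((g⁻¹ : GV V) : AddMonoid.End V)) =
              (g : AddMonoid.End V) * x * (((g⁻¹ : GV V) : AddMonoid.End V) * (g : AddMonoid.End V)) * y *
                ((g⁻¹ : GV V) : AddMonoid.End V) := by
            simp only [mul_assoc]
          rw [this, hgi, mul_one]
          simp only [mul_assoc]
        rw [e]
        exact mul_mem h1 h2
    have hRK : ∀ c : K, Module.toAddMonoidEnd K V c ∈ Subring.closure Zs := by
      intro c
      by_cases hc : c = 0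
      · rw [hc, map_zero]; exact zero_mem _
      · apply Subring.subset_closure
        refine ⟨scal K V (Units.mk0 c hc), hBs _, fun b hb => ((hlin b hb).scal_comm _).symm, rfl⟩
    intro a ha hac
    obtain ⟨c, hc⟩ := S.max (Subring.closure Zs) hRc hRn hRK a (Subring.subset_closure ⟨a, ha, hac, rfl⟩)
    obtain ⟨v, hv⟩ := exists_ne (0 : V)
    have hc0 : c ≠ 0 := by
      rintro rfl
      apply hv
      rw [← smul_eq_zero_iff_eq a]
      have h1 : a • v = (a : AddMonoid.End V) v := rfl
      rw [h1, hc, map_zero]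
      rfl
    refine ⟨Units.mk0 c hc0, ?_⟩
    apply Units.ext
    rw [hc]
    rfl
  refine ⟨B, r, { toSetA := S, heis := ?_, le := hBA, norm := hBn, min := hmin', ns := hBns }⟩
  exact ⟨hr, hlin, hBs, hpow, hcc, hcent⟩

end Cfsg.Agent.H680.TcSelB
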